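import Mathlib
import Cfsg.Agent.S0065

set_option autoImplicit false

namespace Cfsg.Agent.Lib.Helper20.FPF4

open scoped commutatorElement

section Abstract

variable {A : Type*} [Group A] [Finite A] {M : Type*} [AddCommGroup M] [Finite M]
  [DistribMulAction A M]

theorem neg_of_fix (s : A) (hsf : ∀ m : M, s • m = m → m = 0) (m : M)
    (hm : s • s • m = m) : s • m = -m := by
  have h : s • (m + s • m) = m + s • m := by rw [smul_add, hm, add_comm]
  exact (neg_eq_of_add_eq_zero_right (hsf _ h)).symm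

def commSub (Y : Subgroup A) : AddSubgroup M :=
  AddSubgroup.closure {w : M | ∃ y ∈ Y, ∃ m : M, w = y • m - m}

theorem sub_mem_commSub {Y : Subgroup A} {y : A} (hy : y ∈ Y) (m : M) :
    y • m - m ∈ commSub (M := M) Y :=
  AddSubgroup.subset_closure ⟨y, hy, m, rfl⟩

theorem smul_mem_commSub_of_normalizes {Y : Subgroup A} (x : A)
    (hx : ∀ y ∈ Y, x * y * x⁻¹ ∈ Y) (w : M) (hw : w ∈ commSub (M := M) Y) :
    x • w ∈ commSub (M := M) Y := by
  unfold commSub at hw ⊢
  induction hw using AddSubgroup.closure_induction with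
  | mem w hw =>
    obtain ⟨y, hy, m, rfl⟩ := hw
    refine AddSubgroup.subset_closure ⟨x * y * x⁻¹, hx y hy, x • m, ?_⟩
    rw [smul_sub, mul_smul, mul_smul, inv_smul_smul]
  | zero => rw [smul_zero]; exact AddSubgroup.zero_mem _
  | add a b _ _ ha hb => rw [smul_add]; exact AddSubgroup.add_mem _ ha hb
  | neg a _ ha => rw [smul_neg]; exact AddSubgroup.neg_mem _ ha

theorem fix_zero_of_coprime (Y : Subgroup A)
    (hcop : (Nat.card Y).Coprime (Nat.card M)) (u : M)
    (hu : u ∈ commSub (M := M) Y)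
    (hfix : ∀ y ∈ Y, y • u = u) : u = 0 := by
  classical
  have : Fintype Y := Fintype.ofFinite Y
  have hk : ∀ w ∈ commSub (M := M) Y, ∑ z : Y, (z : A) • w = 0 := by
    intro w hw
    unfold commSub at hw
    induction hw using AddSubgroup.closure_induction with
    | mem w hw =>
      obtain ⟨y, hy, m, rfl⟩ := hw
      simp only [smul_sub, Finset.sum_sub_distrib, sub_eq_zero]
      exact Fintype.sum_equiv (Equiv.mulRight (⟨y, hy⟩ : Y)) _ _
        (fun z => by simp [mul_smul])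
    | zero => simp
    | add a b _ _ ha hb => simp only [smul_add, Finset.sum_add_distrib, ha, hb, add_zero]
    | neg a _ ha => simp only [smul_neg, Finset.sum_neg_distrib, ha, neg_zero]
  have h2 : Nat.card Y • u = 0 := by
    have h1 := hk u hu
    rw [Finset.sum_congr rfl (fun z _ => hfix z.1 z.2), Finset.sum_const, Finset.card_univ,
      ← Nat.card_eq_fintype_card] at h1
    exact h1
  have h3 : addOrderOf u ∣ Nat.card Y := addOrderOf_dvd_iff_nsmul_eq_zero.mpr h2
  have h4 : addOrderOf u ∣ Nat.card M := addOrderOf_dvd_natCard u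
  have h5 : addOrderOf u = 1 :=
    Nat.dvd_one.mp (by rw [← hcop.gcd_eq_one]; exact Nat.dvd_gcd h3 h4)
  exact AddMonoid.addOrderOf_eq_one_iff.mp h5

theorem pow_smul_fix (z : A) (m : M) (h : z • m = m) (k : ℕ) : (z ^ k) • m = m := by
  have h1 : z ∈ MulAction.stabilizer A m := MulAction.mem_stabilizer_iff.mpr h
  exact MulAction.mem_stabilizer_iff.mp (Subgroup.pow_mem _ h1 k)

theorem odd_sq_pow (y : A) (h : Odd (orderOf y)) : ∃ j : ℕ, (y * y) ^ j = y := by
  obtain ⟨j, hj⟩ := h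
  refine ⟨j + 1, ?_⟩
  rw [← pow_two, ← pow_mul]
  have : 2 * (j + 1) = orderOf y + 1 := by omega
  rw [this, pow_succ, pow_orderOf_eq_one, one_mul]

theorem inverted_trivial [FaithfulSMul A M] (s : A) (hs4 : s ^ 4 = 1)
    (hsf : ∀ m : M, s • m = m → m = 0)
    (Y : Subgroup A)
    (hYab : ∀ y ∈ Y, ∀ z ∈ Y, y * z = z * y)
    (hsY : ∀ y ∈ Y, s * y * s⁻¹ ∈ Y)
    (hτY : ∀ y ∈ Y, (s * s) * y * (s * s)⁻¹ = y⁻¹)
    (hYodd : ∀ y ∈ Y, Odd (orderOf y))
    (hcop : (Nat.card Y).Coprime (Nat.card M)) :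
    ∀ y ∈ Y, y = 1 := by
  classical
  have hτ2 : ∀ m : M, s • s • s • s • m = m := by
    intro m
    have h : (s ^ 4) • m = m := by rw [hs4, one_smul]
    have e : (s ^ 4) • m = s • s • s • s • m := by
      simp only [pow_succ, pow_zero, one_mul, mul_smul]
    rw [← e]
    exact h
  have hτy : ∀ y ∈ Y, ∀ m : M, s • s • y • m = y⁻¹ • s • s • m := by
    intro y hy m
    have h2 : (s * s) * y = y⁻¹ * (s * s) := mul_inv_eq_iff_eq_mul.mp (hτY y hy)
    have h3 := congrArg (fun a : A => a • m) h2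
    simpa [mul_smul] using h3
  have hτyinv : ∀ y ∈ Y, ∀ m : M, s • s • y⁻¹ • m = y • s • s • m := by
    intro y hy m
    have := hτy y⁻¹ (Y.inv_mem hy) m
    rwa [inv_inv] at this
  have hsy : ∀ (y : A) (m : M), s • y • m = (s * y * s⁻¹) • s • m := by
    intro y m
    simp [mul_smul]
  let M' : AddSubgroup M :=
    { carrier := {u | ∀ y ∈ Y, (s * y * s⁻¹) • u + (s * y * s⁻¹)⁻¹ • u = y • u + y⁻¹ • u}
      zero_mem' := by
        intro y _
        simp
      add_mem' := by
        intro a b ha hb y hy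
        have h1 := ha y hy
        have h2 := hb y hy
        simp only [smul_add]
        calc (s * y * s⁻¹) • a + (s * y * s⁻¹) • b + ((s * y * s⁻¹)⁻¹ • a + (s * y * s⁻¹)⁻¹ • b)
            = ((s * y * s⁻¹) • a + (s * y * s⁻¹)⁻¹ • a) +
              ((s * y * s⁻¹) • b + (s * y * s⁻¹)⁻¹ • b) := by abel
          _ = y • a + y • b + (y⁻¹ • a + y⁻¹ • b) := by rw [h1, h2]; abel
      neg_mem' := by
        intro a ha y hy
        have h1 := ha y hy
        simp only [smul_neg]
        rw [← neg_add, ← neg_add, h1] }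
  have hM'def : ∀ u : M, u ∈ M' ↔
      ∀ y ∈ Y, (s * y * s⁻¹) • u + (s * y * s⁻¹)⁻¹ • u = y • u + y⁻¹ • u := fun u => Iff.rfl
  have hb1 : ∀ u : M, s • s • u = u → u ∈ M' := by
    intro u hu
    rw [hM'def]
    intro y hy
    have hsu : s • u = -u := neg_of_fix s hsf u hu
    have hw : s • s • (y • u + y⁻¹ • u) = y • u + y⁻¹ • u := by
      rw [smul_add, smul_add, hτy y hy, hτyinv y hy, hu, add_comm]
    have hsw : s • (y • u + y⁻¹ • u) = -(y • u + y⁻¹ • u) := neg_of_fix s hsf _ hw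
    have h1 : s • (y • u + y⁻¹ • u) = -((s * y * s⁻¹) • u + (s * y * s⁻¹)⁻¹ • u) := by
      rw [smul_add, hsy y u, hsy y⁻¹ u, hsu]
      have e : s * y⁻¹ * s⁻¹ = (s * y * s⁻¹)⁻¹ := by group
      rw [e, smul_neg, smul_neg, neg_add]
    rw [h1] at hsw
    exact neg_injective hsw
  have hb2 : ∀ z ∈ Y, ∀ u ∈ M', z • u ∈ M' := by
    intro z hz u hu
    rw [hM'def] at hu ⊢
    intro y hy
    have h1 := hu y hy
    have hc : s * y * s⁻¹ ∈ Y := hsY y hy
    have e1 : (s * y * s⁻¹) • z • u = z • (s * y * s⁻¹) • u := by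
      rw [← mul_smul, ← mul_smul, hYab _ hc z hz]
    have e2 : (s * y * s⁻¹)⁻¹ • z • u = z • (s * y * s⁻¹)⁻¹ • u := by
      rw [← mul_smul, ← mul_smul, hYab _ (Y.inv_mem hc) z hz]
    have e3 : y • z • u = z • y • u := by rw [← mul_smul, ← mul_smul, hYab y hy z hz]
    have e4 : y⁻¹ • z • u = z • y⁻¹ • u := by
      rw [← mul_smul, ← mul_smul, hYab _ (Y.inv_mem hy) z hz]
    rw [e1, e2, e3, e4, ← smul_add, ← smul_add, h1]
  have hb4 : ∀ y ∈ Y, ∀ m : M, y • m - m ∈ M' := by
    have key : ∀ y ∈ Y, ∀ m : M, y • m - y⁻¹ • m ∈ M' := by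
      intro y hy m
      have h1 : y • m + s • s • y • m ∈ M' :=
        hb1 _ (by rw [smul_add, smul_add, hτ2, add_comm])
      have h2 : y⁻¹ • (m + s • s • m) ∈ M' :=
        hb2 _ (Y.inv_mem hy) _ (hb1 _ (by rw [smul_add, smul_add, hτ2, add_comm]))
      have h3 := M'.sub_mem h1 h2
      have e : y • m + s • s • y • m - y⁻¹ • (m + s • s • m) = y • m - y⁻¹ • m := by
        rw [hτy y hy, smul_add]
        abel
      rwa [e] at h3
    have key2 : ∀ y ∈ Y, ∀ m : M, (y * y) • m - m ∈ M' := by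
      intro y hy m
      have := key y hy (y • m)
      rwa [inv_smul_smul, ← mul_smul] at this
    have key3 : ∀ z ∈ Y, (∀ m : M, z • m - m ∈ M') →
        ∀ (k : ℕ) (m : M), (z ^ k) • m - m ∈ M' := by
      intro z hz h k
      induction k with
      | zero =>
        intro m
        simp
      | succ k ih =>
        intro m
        have h1 := hb2 z hz _ (ih m)
        have h2 := M'.add_mem h1 (h m)
        have e : z • ((z ^ k) • m - m) + (z • m - m) = (z ^ (k + 1)) • m - m := by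
          rw [pow_succ', mul_smul, smul_sub]
          abel
        rwa [e] at h2
    intro y hy m
    obtain ⟨j, hj⟩ := odd_sq_pow y (hYodd y hy)
    have := key3 (y * y) (Y.mul_mem hy hy) (key2 y hy) j m
    rwa [hj] at this
  have hNM' : commSub (M := M) Y ≤ M' := by
    unfold commSub
    rw [AddSubgroup.closure_le]
    rintro w ⟨y, hy, m, rfl⟩
    exact hb4 y hy m
  have hNinv : ∀ z ∈ Y, ∀ w ∈ commSub (M := M) Y, z • w ∈ commSub (M := M) Y :=
    fun z hz w hw => smul_mem_commSub_of_normalizes z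
      (fun y hy => Y.mul_mem (Y.mul_mem hz hy) (Y.inv_mem hz)) w hw
  by_contra hcon
  push Not at hcon
  obtain ⟨y0, hy0, hy01⟩ := hcon
  have hNne : commSub (M := M) Y ≠ ⊥ := by
    intro hbot
    apply hy01
    apply FaithfulSMul.eq_of_smul_eq_smul (α := M)
    intro m
    have h : y0 • m - m ∈ commSub (M := M) Y := sub_mem_commSub hy0 m
    rw [hbot, AddSubgroup.mem_bot, sub_eq_zero] at h
    rw [h, one_smul]
  have hex : ∃ n : ℕ, ∃ L : AddSubgroup M, L ≤ commSub (M := M) Y ∧ L ≠ ⊥ ∧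
      (∀ z ∈ Y, ∀ w ∈ L, z • w ∈ L) ∧ Nat.card L = n :=
    ⟨_, commSub Y, le_rfl, hNne, hNinv, rfl⟩
  obtain ⟨L, hLN, hLne, hLinv, hLcard⟩ := Nat.find_spec hex
  have hLmin : ∀ L' : AddSubgroup M, L' ≤ L → L' ≠ ⊥ →
      (∀ z ∈ Y, ∀ w ∈ L', z • w ∈ L') → L' = L := by
    intro L' hL'L hL'ne hL'inv
    have h1 : Nat.find hex ≤ Nat.card L' :=
      Nat.find_min' hex ⟨L', hL'L.trans hLN, hL'ne, hL'inv, rfl⟩
    exact AddSubgroup.eq_of_le_of_card_ge hL'L (by rw [hLcard]; exact h1)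
  have hb6 : ∃ y1 ∈ Y, ¬ (∀ m ∈ L, y1 • m = m) := by
    by_contra h
    push Not at h
    apply hLne
    rw [eq_bot_iff]
    intro u hu
    rw [AddSubgroup.mem_bot]
    exact fix_zero_of_coprime Y hcop u (hLN hu) (fun y hy => h y hy u hu)
  have hb7 : ∀ y ∈ Y, ¬ (∀ m ∈ L, y • m = m) → ∀ m ∈ L, y • m = m → m = 0 := by
    intro y hy hyK m hm hym
    let L' : AddSubgroup M :=
      { carrier := {m | m ∈ L ∧ y • m = m}
        zero_mem' := ⟨L.zero_mem, smul_zero y⟩
        add_mem' := fun ha hb => ⟨L.add_mem ha.1 hb.1, by rw [smul_add, ha.2, hb.2]⟩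
        neg_mem' := fun ha => ⟨L.neg_mem ha.1, by rw [smul_neg, ha.2]⟩ }
    have hL'def : ∀ w : M, w ∈ L' ↔ (w ∈ L ∧ y • w = w) := fun w => Iff.rfl
    by_contra hm0
    have hL'ne : L' ≠ ⊥ := fun hbot => hm0 (by
      have h : m ∈ L' := (hL'def m).mpr ⟨hm, hym⟩
      rwa [hbot, AddSubgroup.mem_bot] at h)
    have hL'inv : ∀ z ∈ Y, ∀ w ∈ L', z • w ∈ L' := fun z hz w hw =>
      (hL'def _).mpr ⟨hLinv z hz w ((hL'def w).mp hw).1, by
        rw [← mul_smul, hYab y hy z hz, mul_smul, ((hL'def w).mp hw).2]⟩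
    have hEq := hLmin L' (fun w hw => ((hL'def w).mp hw).1) hL'ne hL'inv
    exact hyK (fun w hw => by
      have h : w ∈ L' := by rw [hEq]; exact hw
      exact ((hL'def w).mp h).2)
  have hb8 : ∀ y ∈ Y, (∀ m ∈ L, (s * y * s⁻¹) • m = y • m) ∨
      (∀ m ∈ L, (s * y * s⁻¹) • m = y⁻¹ • m) := by
    intro y hy
    by_cases h1 : ∀ m ∈ L, (s * y * s⁻¹) • m = y • m
    · exact Or.inl h1
    · right
      intro m hm
      have hc : s * y * s⁻¹ ∈ Y := hsY y hy
      obtain ⟨y', hy'⟩ : ∃ y' : A, y' = s * y * s⁻¹ := ⟨_, rfl⟩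
      rw [← hy'] at hc h1 ⊢
      have hnK : ¬ (∀ m ∈ L, (y⁻¹ * y') • m = m) := by
        intro h
        apply h1
        intro m hm
        have := h m hm
        rw [mul_smul, inv_smul_eq_iff] at this
        exact this
      have hu : (y * y') • m ∈ L := hLinv _ (Y.mul_mem hy hc) m hm
      have hrel := (hM'def _).mp (hNM' (hLN hu)) y hy
      rw [← hy'] at hrel
      have ha : y'⁻¹ • (y * y') • m = y • m := by
        rw [← mul_smul, hYab y hy y' hc, inv_mul_cancel_left]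
      have hb : y⁻¹ • (y * y') • m = y' • m := by
        rw [← mul_smul, inv_mul_cancel_left]
      rw [ha, hb] at hrel
      have hn : (y * y') • m - m ∈ L := L.sub_mem hu hm
      have hfix : (y⁻¹ * y') • ((y * y') • m - m) = (y * y') • m - m := by
        have e1 : y' • ((y * y') • m - m) = y • ((y * y') • m - m) := by
          rw [smul_sub, smul_sub]
          exact sub_eq_sub_iff_add_eq_add.mpr hrel
        rw [mul_smul, e1, inv_smul_smul]
      have h0 := hb7 _ (Y.mul_mem (Y.inv_mem hy) hc) hnK _ hn hfix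
      have h2 : (y * y') • m = m := sub_eq_zero.mp h0
      rw [mul_smul] at h2
      rw [eq_inv_smul_iff]
      exact h2
  have hcmul : ∀ a b : A, s * (a * b) * s⁻¹ = (s * a * s⁻¹) * (s * b * s⁻¹) := by
    intro a b
    group
  have hb9 : (∀ y ∈ Y, ∀ m ∈ L, (s * y * s⁻¹) • m = y • m) ∨
      (∀ y ∈ Y, ∀ m ∈ L, (s * y * s⁻¹) • m = y⁻¹ • m) := by
    by_contra h
    push Not at h
    obtain ⟨⟨y1, hy1, h1⟩, ⟨y2, hy2, h2⟩⟩ := h
    have h1' := (hb8 y1 hy1).resolve_left (by push Not; exact h1)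
    have h2' := (hb8 y2 hy2).resolve_right (by push Not; exact h2)
    obtain ⟨m1, hm1, hne1⟩ := h1
    obtain ⟨m2, hm2, hne2⟩ := h2
    have hc1 := hsY y1 hy1
    have hc2 := hsY y2 hy2
    rcases hb8 (y1 * y2) (Y.mul_mem hy1 hy2) with h3 | h3
    · apply hne1
      have hm' : y2⁻¹ • m1 ∈ L := hLinv _ (Y.inv_mem hy2) m1 hm1
      have e := h3 _ hm'
      have l : (s * (y1 * y2) * s⁻¹) • y2⁻¹ • m1 = (s * y1 * s⁻¹) • m1 := by
        rw [hcmul, mul_smul (s * y1 * s⁻¹), h2' _ hm', smul_inv_smul]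
      have r : (y1 * y2) • y2⁻¹ • m1 = y1 • m1 := by rw [mul_smul, smul_inv_smul]
      rw [← l, ← r]
      exact e
    · apply hne2
      have e := h3 m2 hm2
      have hm' : (s * y2 * s⁻¹) • m2 ∈ L := hLinv _ hc2 m2 hm2
      have l : (s * (y1 * y2) * s⁻¹) • m2 = y1⁻¹ • (s * y2 * s⁻¹) • m2 := by
        rw [hcmul, mul_smul (s * y1 * s⁻¹), h1' _ hm']
      have r : (y1 * y2)⁻¹ • m2 = y1⁻¹ • y2⁻¹ • m2 := by
        rw [mul_inv_rev, hYab _ (Y.inv_mem hy2) _ (Y.inv_mem hy1), mul_smul]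
      rw [l, r] at e
      exact smul_left_cancel _ e
  have hcc : ∀ y ∈ Y, s * (s * y * s⁻¹) * s⁻¹ = y⁻¹ := by
    intro y hy
    rw [← hτY y hy]
    group
  have hsq : ∀ y ∈ Y, ∀ m ∈ L, (y * y) • m = m := by
    intro y hy m hm
    have hc := hsY y hy
    have key : y⁻¹ • m = y • m := by
      rcases hb9 with h | h
      · have e1 := h _ hc m hm
        rw [hcc y hy] at e1
        rw [e1, h y hy m hm]
      · have e1 := h _ hc m hm
        rw [hcc y hy] at e1
        have e2 := h y hy _ (hLinv y hy m hm)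
        rw [inv_smul_smul] at e2
        rw [e1, inv_smul_eq_iff, e2]
    rw [mul_smul, ← key, smul_inv_smul]
  obtain ⟨y1, hy1, hy1K⟩ := hb6
  apply hy1K
  intro m hm
  obtain ⟨j, hj⟩ := odd_sq_pow y1 (hYodd y1 hy1)
  have := pow_smul_fix (y1 * y1) m (hsq y1 hy1 m hm) j
  rwa [hj] at this

theorem conj_eq_inv (s : A) (X : Subgroup A)
    (hsX : ∀ x ∈ X, s * x * s⁻¹ ∈ X) (hfX : ∀ x ∈ X, s * x * s⁻¹ = x → x = 1)
    (x : A) (hx : x ∈ X) (hτx : (s * s) * x * (s * s)⁻¹ = x) : s * x * s⁻¹ = x⁻¹ := by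
  let F : Subgroup A :=
    { carrier := {x | x ∈ X ∧ (s * s) * x * (s * s)⁻¹ = x}
      mul_mem' := fun {a b} ha hb => ⟨X.mul_mem ha.1 hb.1, by
        have h1 := ha.2
        have h2 := hb.2
        calc (s * s) * (a * b) * (s * s)⁻¹
            = ((s * s) * a * (s * s)⁻¹) * ((s * s) * b * (s * s)⁻¹) := by group
          _ = a * b := by rw [h1, h2]⟩
      one_mem' := ⟨X.one_mem, by group⟩
      inv_mem' := fun {a} ha => ⟨X.inv_mem ha.1, by
        have h1 := ha.2
        calc (s * s) * a⁻¹ * (s * s)⁻¹ = ((s * s) * a * (s * s)⁻¹)⁻¹ := by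
              generalize s * s = t
              group
          _ = a⁻¹ := by rw [h1]⟩ }
  have hFdef : ∀ a : A, a ∈ F ↔ (a ∈ X ∧ (s * s) * a * (s * s)⁻¹ = a) := fun a => Iff.rfl
  let φ : F →* F :=
    { toFun := fun y => ⟨s * y.1 * s⁻¹, (hFdef _).mpr ⟨hsX _ ((hFdef _).mp y.2).1, by
        have h := ((hFdef _).mp y.2).2
        calc (s * s) * (s * y.1 * s⁻¹) * (s * s)⁻¹
            = s * ((s * s) * y.1 * (s * s)⁻¹) * s⁻¹ := by group
          _ = s * y.1 * s⁻¹ := by rw [h]⟩⟩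
      map_one' := by
        apply Subtype.ext
        simp
      map_mul' := fun a b => by
        apply Subtype.ext
        simp [mul_assoc] }
  have hφval : ∀ y : F, (φ y : A) = s * y.1 * s⁻¹ := fun y => rfl
  have hφ : MonoidHom.FixedPointFree φ := by
    intro y hy
    have h := congrArg Subtype.val hy
    rw [hφval] at h
    exact Subtype.ext (hfX y.1 ((hFdef _).mp y.2).1 h)
  have h2 : (φ)^[2] = id := by
    funext y
    apply Subtype.ext
    have h := ((hFdef _).mp y.2).2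
    show (φ (φ y) : A) = y.1
    rw [hφval, hφval]
    calc s * (s * y.1 * s⁻¹) * s⁻¹ = (s * s) * y.1 * (s * s)⁻¹ := by group
      _ = y.1 := h
  have h3 := hφ.coe_eq_inv_of_sq_eq_one h2
  have h4 := congrFun h3 ⟨x, (hFdef _).mpr ⟨hx, hτx⟩⟩
  have h5 := congrArg Subtype.val h4
  rw [hφval] at h5
  exact h5

theorem fix_of_comm (s : A) (hsf : ∀ m : M, s • m = m → m = 0) (X : Subgroup A)
    (hsX : ∀ x ∈ X, s * x * s⁻¹ ∈ X) (hfX : ∀ x ∈ X, s * x * s⁻¹ = x → x = 1)
    (hXodd : ∀ x ∈ X, Odd (orderOf x))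
    (x : A) (hx : x ∈ X) (hτx : (s * s) * x * (s * s)⁻¹ = x) (m : M) (hm : s • s • m = m) :
    x • m = m := by
  have hinv := conj_eq_inv s X hsX hfX x hx hτx
  have hcomm : (s * s) * x = x * (s * s) := mul_inv_eq_iff_eq_mul.mp hτx
  have hxm : s • s • x • m = x • m := by
    have h := congrArg (fun a : A => a • m) hcomm
    simp only [mul_smul] at h
    rw [h, hm]
  have hs1 : s • x • m = -(x • m) := neg_of_fix s hsf _ hxm
  have hsm : s • m = -m := neg_of_fix s hsf m hm
  have hs2 : s • x • m = -(x⁻¹ • m) := by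
    have e : s • x • m = (s * x * s⁻¹) • s • m := by simp [mul_smul]
    rw [e, hinv, hsm, smul_neg]
  have h1 : x • m = x⁻¹ • m := by
    have := hs1.symm.trans hs2
    exact neg_injective this
  have h2 : (x * x) • m = m := by
    rw [mul_smul, h1, smul_inv_smul]
  obtain ⟨j, hj⟩ := odd_sq_pow x (hXodd x hx)
  have := pow_smul_fix (x * x) m h2 j
  rwa [hj] at this

theorem star1 [FaithfulSMul A M] (s : A) (hs4 : s ^ 4 = 1) (hsf : ∀ m : M, s • m = m → m = 0)
    (X : Subgroup A) (hsX : ∀ x ∈ X, s * x * s⁻¹ ∈ X)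
    (hfX : ∀ x ∈ X, s * x * s⁻¹ = x → x = 1) (hXodd : ∀ x ∈ X, Odd (orderOf x))
    (q : ℕ) [Fact q.Prime] (Q : Subgroup A) (hQX : Q ≤ X)
    (hQn : ∀ x ∈ X, ∀ y ∈ Q, x * y * x⁻¹ ∈ Q) (hsQ : ∀ y ∈ Q, s * y * s⁻¹ ∈ Q)
    (hQ : IsPGroup q Q) (hqM : (Nat.card M).Coprime q) :
    ∀ y ∈ Q, y ∈ ⁅X, X⁆ → y = 1 := by
  classical
  have h4 : s * s * s * s = 1 := by
    have e : s ^ 4 = s * s * s * s := by simp only [pow_succ, pow_zero, one_mul]
    rw [← e]
    exact hs4
  have hτ2 : ∀ m : M, s • s • s • s • m = m := by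
    intro m
    have e : (s * s * s * s) • m = s • s • s • s • m := by simp only [mul_smul]
    rw [← e, h4, one_smul]
  have hττ : (s * s) * (s * s) = 1 := by
    rw [← mul_assoc]
    exact h4
  have hcopQ : ∀ Y : Subgroup A, Y ≤ Q → (Nat.card Y).Coprime (Nat.card M) := by
    intro Y hY
    obtain ⟨k, hk⟩ := IsPGroup.iff_card.mp (hQ.to_le hY)
    rw [hk]
    exact Nat.Coprime.pow_left k hqM.symm
  have hsQ' : ∀ y ∈ Q, s⁻¹ * y * s ∈ Q := by
    intro y hy
    have e : s⁻¹ * y * s = s * (s * (s * y * s⁻¹) * s⁻¹) * s⁻¹ := by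
      calc s⁻¹ * y * s = (s * s * s * s) * (s⁻¹ * y * s) * (s * s * s * s)⁻¹ := by
            rw [h4]
            group
        _ = s * (s * (s * y * s⁻¹) * s⁻¹) * s⁻¹ := by group
    rw [e]
    exact hsQ _ (hsQ _ (hsQ y hy))
  let Z : Subgroup A :=
    { carrier := {z | z ∈ Q ∧ ∀ y ∈ Q, z * y = y * z}
      mul_mem' := fun {a b} ha hb => ⟨Q.mul_mem ha.1 hb.1, fun y hy => by
        rw [mul_assoc, hb.2 y hy, ← mul_assoc, ha.2 y hy, mul_assoc]⟩
      one_mem' := ⟨Q.one_mem, fun y _ => by rw [one_mul, mul_one]⟩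
      inv_mem' := fun {a} ha => ⟨Q.inv_mem ha.1, fun y hy => by
        have := ha.2 y hy
        rw [inv_mul_eq_iff_eq_mul, ← mul_assoc, this, mul_inv_cancel_right]⟩ }
  have hZdef : ∀ z : A, z ∈ Z ↔ (z ∈ Q ∧ ∀ y ∈ Q, z * y = y * z) := fun z => Iff.rfl
  have hZQ : Z ≤ Q := fun z hz => ((hZdef z).mp hz).1
  have hsZ : ∀ z ∈ Z, s * z * s⁻¹ ∈ Z := by
    intro z hz
    obtain ⟨hzQ, hzc⟩ := (hZdef z).mp hz
    refine (hZdef _).mpr ⟨hsQ z hzQ, fun y hy => ?_⟩
    calc s * z * s⁻¹ * y = s * (z * (s⁻¹ * y * s)) * s⁻¹ := by group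
      _ = s * ((s⁻¹ * y * s) * z) * s⁻¹ := by rw [hzc _ (hsQ' y hy)]
      _ = y * (s * z * s⁻¹) := by group
  have hXZ : ∀ x ∈ X, ∀ z ∈ Z, x * z * x⁻¹ ∈ Z := by
    intro x hx z hz
    obtain ⟨hzQ, hzc⟩ := (hZdef z).mp hz
    refine (hZdef _).mpr ⟨hQn x hx z hzQ, fun y hy => ?_⟩
    have hy' : x⁻¹ * y * x ∈ Q := by
      have := hQn x⁻¹ (X.inv_mem hx) y hy
      rwa [inv_inv] at this
    calc x * z * x⁻¹ * y = x * (z * (x⁻¹ * y * x)) * x⁻¹ := by group
      _ = x * ((x⁻¹ * y * x) * z) * x⁻¹ := by rw [hzc _ hy']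
      _ = y * (x * z * x⁻¹) := by group
  have hτZ : ∀ z ∈ Z, (s * s) * z * (s * s)⁻¹ ∈ Z := by
    intro z hz
    have e : (s * s) * z * (s * s)⁻¹ = s * (s * z * s⁻¹) * s⁻¹ := by group
    rw [e]
    exact hsZ _ (hsZ z hz)
  let Zm : Subgroup A :=
    { carrier := {z | z ∈ Z ∧ (s * s) * z * (s * s)⁻¹ = z⁻¹}
      mul_mem' := fun {a b} ha hb => ⟨Z.mul_mem ha.1 hb.1, by
        have h1 := ha.2
        have h2 := hb.2
        have hab : a * b = b * a := ((hZdef a).mp ha.1).2 b (hZQ hb.1)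
        calc (s * s) * (a * b) * (s * s)⁻¹
            = ((s * s) * a * (s * s)⁻¹) * ((s * s) * b * (s * s)⁻¹) := by
              generalize s * s = t
              group
          _ = (a * b)⁻¹ := by rw [h1, h2, hab, mul_inv_rev]⟩
      one_mem' := ⟨Z.one_mem, by
        generalize s * s = t
        group⟩
      inv_mem' := fun {a} ha => ⟨Z.inv_mem ha.1, by
        have h1 := ha.2
        calc (s * s) * a⁻¹ * (s * s)⁻¹ = ((s * s) * a * (s * s)⁻¹)⁻¹ := by
              generalize s * s = t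
              group
          _ = a⁻¹⁻¹ := by rw [h1]⟩ }
  have hZmdef : ∀ z : A, z ∈ Zm ↔ (z ∈ Z ∧ (s * s) * z * (s * s)⁻¹ = z⁻¹) := fun z => Iff.rfl
  have hZm1 : ∀ z ∈ Zm, z = 1 := by
    apply inverted_trivial (M := M) s hs4 hsf Zm
    · intro a ha b hb
      exact ((hZdef a).mp ((hZmdef a).mp ha).1).2 b (hZQ ((hZmdef b).mp hb).1)
    · intro z hz
      obtain ⟨hzZ, hzi⟩ := (hZmdef z).mp hz
      refine (hZmdef _).mpr ⟨hsZ z hzZ, ?_⟩
      calc (s * s) * (s * z * s⁻¹) * (s * s)⁻¹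
          = s * ((s * s) * z * (s * s)⁻¹) * s⁻¹ := by group
        _ = (s * z * s⁻¹)⁻¹ := by
          rw [hzi]
          group
    · intro z hz
      exact ((hZmdef z).mp hz).2
    · intro z hz
      exact hXodd z (hQX (hZQ ((hZmdef z).mp hz).1))
    · exact hcopQ Zm (fun z hz => hZQ ((hZmdef z).mp hz).1)
  have hτZc : ∀ z ∈ Z, (s * s) * z * (s * s)⁻¹ = z := by
    intro z hz
    have hz' := hτZ z hz
    have hw : z * ((s * s) * z * (s * s)⁻¹)⁻¹ ∈ Zm := by
      refine (hZmdef _).mpr ⟨Z.mul_mem hz (Z.inv_mem hz'), ?_⟩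
      have e1 : (s * s) * ((s * s) * z * (s * s)⁻¹) * (s * s)⁻¹ = z := by
        calc (s * s) * ((s * s) * z * (s * s)⁻¹) * (s * s)⁻¹
            = ((s * s) * (s * s)) * z * ((s * s) * (s * s))⁻¹ := by
              generalize s * s = t
              group
          _ = z := by
            rw [hττ]
            group
      calc (s * s) * (z * ((s * s) * z * (s * s)⁻¹)⁻¹) * (s * s)⁻¹
          = ((s * s) * z * (s * s)⁻¹) *
            ((s * s) * ((s * s) * z * (s * s)⁻¹) * (s * s)⁻¹)⁻¹ := by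
            generalize s * s = t
            group
        _ = (z * ((s * s) * z * (s * s)⁻¹)⁻¹)⁻¹ := by
          rw [e1]
          generalize s * s = t
          group
    have h1 := hZm1 _ hw
    exact (mul_inv_eq_one.mp h1).symm
  let T : Subgroup A := Subgroup.closure {t | ∃ x ∈ X, t = x⁻¹ * ((s * s) * x * (s * s)⁻¹)}
  have hTdef : T = Subgroup.closure {t | ∃ x ∈ X, t = x⁻¹ * ((s * s) * x * (s * s)⁻¹)} := rfl
  have hgenT : ∀ x ∈ X, x⁻¹ * ((s * s) * x * (s * s)⁻¹) ∈ T := fun x hx =>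
    Subgroup.subset_closure ⟨x, hx, rfl⟩
  have hTn : ∀ y ∈ X, ∀ t ∈ T, y * t * y⁻¹ ∈ T := by
    intro y hy t ht
    rw [hTdef] at ht
    induction ht using Subgroup.closure_induction with
    | mem t ht =>
      obtain ⟨x, hx, rfl⟩ := ht
      have e : y * (x⁻¹ * ((s * s) * x * (s * s)⁻¹)) * y⁻¹ =
          ((x * y⁻¹)⁻¹ * ((s * s) * (x * y⁻¹) * (s * s)⁻¹)) *
            ((y⁻¹)⁻¹ * ((s * s) * y⁻¹ * (s * s)⁻¹))⁻¹ := by
        generalize s * s = t
        group
      rw [e]
      exact T.mul_mem (hgenT _ (X.mul_mem hx (X.inv_mem hy)))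
        (T.inv_mem (hgenT _ (X.inv_mem hy)))
    | one =>
      rw [mul_one, mul_inv_cancel]
      exact T.one_mem
    | mul a b _ _ ha hb =>
      have e : y * (a * b) * y⁻¹ = (y * a * y⁻¹) * (y * b * y⁻¹) := by group
      rw [e]
      exact T.mul_mem ha hb
    | inv a _ ha =>
      have e : y * a⁻¹ * y⁻¹ = (y * a * y⁻¹)⁻¹ := by group
      rw [e]
      exact T.inv_mem ha
  have hW1X : ∀ x ∈ X, ∀ w ∈ commSub (M := M) Z, x • w ∈ commSub (M := M) Z :=
    fun x hx w hw => smul_mem_commSub_of_normalizes x (hXZ x hx) w hw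
  have hW1τ : ∀ w ∈ commSub (M := M) Z, s • s • w ∈ commSub (M := M) Z := by
    intro w hw
    have := smul_mem_commSub_of_normalizes (s * s)
      (fun z hz => by rw [hτZc z hz]; exact hz) w hw
    rwa [mul_smul] at this
  have hW1fix : ∀ w ∈ commSub (M := M) Z, s • s • w = w → w = 0 := by
    intro w hw h
    exact fix_zero_of_coprime Z (hcopQ Z hZQ) w hw
      (fun z hz => fix_of_comm s hsf X hsX hfX hXodd z (hQX (hZQ hz)) (hτZc z hz) w h)
  have hW1neg : ∀ w ∈ commSub (M := M) Z, s • s • w = -w := by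
    intro w hw
    have h1 : w + s • s • w ∈ commSub (M := M) Z := AddSubgroup.add_mem _ hw (hW1τ w hw)
    have h2 : s • s • (w + s • s • w) = w + s • s • w := by
      rw [smul_add, smul_add, hτ2, add_comm]
    have h3 := hW1fix _ h1 h2
    exact (neg_eq_of_add_eq_zero_right h3).symm
  have hTfix : ∀ t ∈ T, ∀ w ∈ commSub (M := M) Z, t • w = w := by
    intro t ht
    rw [hTdef] at ht
    induction ht using Subgroup.closure_induction with
    | mem t ht =>
      obtain ⟨x, hx, rfl⟩ := ht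
      intro w hw
      have h1 : (s * s)⁻¹ • w = -w := by
        rw [inv_smul_eq_iff, smul_neg, mul_smul, hW1neg w hw, neg_neg]
      have h2 : s • s • x • w = -(x • w) := hW1neg _ (hW1X x hx w hw)
      calc (x⁻¹ * ((s * s) * x * (s * s)⁻¹)) • w = x⁻¹ • s • s • x • (s * s)⁻¹ • w := by
            simp only [mul_smul]
        _ = x⁻¹ • s • s • x • (-w) := by rw [h1]
        _ = x⁻¹ • (-(s • s • x • w)) := by simp only [smul_neg]
        _ = w := by rw [h2, neg_neg, inv_smul_smul]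
    | one =>
      intro w _
      rw [one_smul]
    | mul a b _ _ ha hb =>
      intro w hw
      rw [mul_smul, hb w hw, ha w hw]
    | inv a _ ha =>
      intro w hw
      rw [inv_smul_eq_iff, ha w hw]
  have hZT : ∀ z ∈ Z, z ∈ T → z = 1 := by
    intro z hz hzT
    apply FaithfulSMul.eq_of_smul_eq_smul (α := M)
    intro m
    rw [one_smul]
    have hε : z • m - m ∈ commSub (M := M) Z := sub_mem_commSub hz m
    have hfix : z • (z • m - m) = z • m - m := hTfix z hzT _ hε
    have hpow : ∀ k : ℕ, (z ^ k) • m = m + k • (z • m - m) := by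
      intro k
      induction k with
      | zero => simp
      | succ k ih =>
        rw [pow_succ', mul_smul, ih, smul_add, smul_comm z k, hfix, succ_nsmul]
        abel
    have h1 := hpow (orderOf z)
    rw [pow_orderOf_eq_one, one_smul] at h1
    have h2 : orderOf z • (z • m - m) = 0 := by
      have h := h1.symm
      exact add_left_cancel (a := m) (by rw [add_zero]; exact h)
    have h3 : addOrderOf (z • m - m) ∣ orderOf z := addOrderOf_dvd_iff_nsmul_eq_zero.mpr h2
    have h4 : addOrderOf (z • m - m) ∣ Nat.card M := addOrderOf_dvd_natCard _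
    have h5 : (orderOf z).Coprime (Nat.card M) :=
      Nat.Coprime.coprime_dvd_left (Subgroup.orderOf_dvd_natCard Z hz) (hcopQ Z hZQ)
    have h6 : addOrderOf (z • m - m) = 1 :=
      Nat.dvd_one.mp (by rw [← h5.gcd_eq_one]; exact Nat.dvd_gcd h3 h4)
    exact sub_eq_zero.mp (AddMonoid.addOrderOf_eq_one_iff.mp h6)
  have hQT : ∀ y ∈ Q, y ∈ T → y = 1 := by
    intro y hyQ hyT
    by_contra hy1
    haveI : Group.IsNilpotent Q := hQ.isNilpotent
    haveI hDn : (T.subgroupOf Q).Normal := by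
      refine ⟨fun d hd g => ?_⟩
      rw [Subgroup.mem_subgroupOf] at hd ⊢
      exact hTn g.1 (hQX g.2) d.1 hd
    have hDne : T.subgroupOf Q ≠ ⊥ := by
      intro hbot
      have h : (⟨y, hyQ⟩ : Q) ∈ T.subgroupOf Q := Subgroup.mem_subgroupOf.mpr hyT
      rw [hbot, Subgroup.mem_bot] at h
      exact hy1 (congrArg Subtype.val h)
    have hne := Cfsg.Agent.S0065.normal_inf_center_ne_bot (T.subgroupOf Q) hDne
    obtain ⟨z, hz, hz1⟩ : ∃ z ∈ T.subgroupOf Q ⊓ Subgroup.center Q, z ≠ 1 := by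
      by_contra h
      push Not at h
      exact hne ((Subgroup.eq_bot_iff_forall _).mpr h)
    have hzZ : z.1 ∈ Z := by
      refine (hZdef _).mpr ⟨z.2, fun y hy => ?_⟩
      have h := (Subgroup.mem_center_iff.mp hz.2) ⟨y, hy⟩
      exact (congrArg Subtype.val h).symm
    have hzT : z.1 ∈ T := Subgroup.mem_subgroupOf.mp hz.1
    exact hz1 (Subtype.ext (hZT z.1 hzZ hzT))
  have key : ∀ g ∈ X, g * (s * g * s⁻¹) ∈ T := by
    let φ : X →* X :=
      { toFun := fun y => ⟨s * y.1 * s⁻¹, hsX _ y.2⟩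
        map_one' := by
          apply Subtype.ext
          simp
        map_mul' := fun a b => by
          apply Subtype.ext
          simp [mul_assoc] }
    have hφval : ∀ y : X, (φ y : A) = s * y.1 * s⁻¹ := fun y => rfl
    have hφ : MonoidHom.FixedPointFree φ := by
      intro y hy
      have h := congrArg Subtype.val hy
      rw [hφval] at h
      exact Subtype.ext (hfX y.1 y.2 h)
    intro g hg
    obtain ⟨x, hx⟩ := hφ.commutatorMap_surjective ⟨g, hg⟩
    have hx' : x.1 * (s * x.1 * s⁻¹)⁻¹ = g := by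
      have h := congrArg Subtype.val hx
      rw [MonoidHom.commutatorMap_apply, div_eq_mul_inv] at h
      exact h
    have e : g * (s * g * s⁻¹) = (x.1⁻¹)⁻¹ * ((s * s) * x.1⁻¹ * (s * s)⁻¹) := by
      rw [← hx']
      group
    rw [e]
    exact hgenT _ (X.inv_mem x.2)
  have hcomm : ⁅X, X⁆ ≤ T := by
    rw [Subgroup.commutator_le]
    intro g hg h hh
    have h1 := key g hg
    have h2 := key h hh
    have h3 := key (g * h) (X.mul_mem hg hh)
    have e : ⁅g, h⁆ = (g * h * (s * (g * h) * s⁻¹)) * (h * (s * h * s⁻¹))⁻¹ *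
        (h * (g * (s * g * s⁻¹))⁻¹ * h⁻¹) := by
      rw [commutatorElement_def]
      group
    rw [e]
    exact T.mul_mem (T.mul_mem h3 (T.inv_mem h2)) (hTn h hh _ (T.inv_mem h1))
  intro y hyQ hyc
  exact hQT y hyQ (hcomm hyc)

theorem star2 [FaithfulSMul A M] (s : A) (hs4 : s ^ 4 = 1) (hsf : ∀ m : M, s • m = m → m = 0)
    (X : Subgroup A) (hsX : ∀ x ∈ X, s * x * s⁻¹ ∈ X)
    (hfX : ∀ x ∈ X, s * x * s⁻¹ = x → x = 1) (hXodd : ∀ x ∈ X, Odd (orderOf x))
    (hnil : Group.IsNilpotent ↥⁅X, X⁆)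
    (q : ℕ) [hq : Fact q.Prime] (hqM : (Nat.card M).Coprime q)
    (y : A) (hy : y ∈ ⁅X, X⁆) (k : ℕ) (hyq : y ^ q ^ k = 1) : y = 1 := by
  classical
  obtain ⟨P⟩ : Nonempty (Sylow q ↥⁅X, X⁆) := inferInstance
  have hPn : (P : Subgroup ↥⁅X, X⁆).Normal := inferInstance
  have hPall : ∀ z : ↥⁅X, X⁆, (∃ j : ℕ, z ^ q ^ j = 1) → z ∈ (P : Subgroup ↥⁅X, X⁆) := by
    rintro z ⟨j, hj⟩
    have hz : IsPGroup q (Subgroup.zpowers z) := by
      obtain ⟨i, -, hi⟩ := (Nat.dvd_prime_pow hq.out).mp (orderOf_dvd_of_pow_eq_one hj)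
      exact IsPGroup.of_card (n := i) (by rw [Nat.card_zpowers, hi])
    obtain ⟨P', hP'⟩ := hz.exists_le_sylow
    obtain ⟨g, hg⟩ := MulAction.exists_smul_eq ↥⁅X, X⁆ P P'
    rw [Sylow.smul_eq_of_normal] at hg
    rw [hg]
    exact hP' (Subgroup.mem_zpowers z)
  have hcX : ⁅X, X⁆ ≤ X := by
    rw [Subgroup.commutator_le]
    intro g hg h hh
    rw [commutatorElement_def]
    exact X.mul_mem (X.mul_mem (X.mul_mem hg hh) (X.inv_mem hg)) (X.inv_mem hh)
  have hXmap : X.map (MulAut.conj s).toMonoidHom ≤ X := by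
    rintro _ ⟨x, hx, rfl⟩
    exact hsX x hx
  have hsc : ∀ z ∈ ⁅X, X⁆, s * z * s⁻¹ ∈ ⁅X, X⁆ := by
    intro z hz
    have h1 : (⁅X, X⁆).map (MulAut.conj s).toMonoidHom ≤ ⁅X, X⁆ := by
      rw [Subgroup.map_commutator]
      exact Subgroup.commutator_mono hXmap hXmap
    exact h1 (Subgroup.mem_map_of_mem _ hz)
  let Q : Subgroup A := (P : Subgroup ↥⁅X, X⁆).map (⁅X, X⁆).subtype
  have hmemQ : ∀ z ∈ ⁅X, X⁆, (∃ j : ℕ, z ^ q ^ j = 1) → z ∈ Q := by
    rintro z hz ⟨j, hj⟩
    exact ⟨⟨z, hz⟩, hPall ⟨z, hz⟩ ⟨j, Subtype.ext hj⟩, rfl⟩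
  have hQelim : ∀ z ∈ Q, z ∈ ⁅X, X⁆ ∧ ∃ j : ℕ, z ^ q ^ j = 1 := by
    rintro _ ⟨w, hw, rfl⟩
    refine ⟨w.2, ?_⟩
    obtain ⟨j, hj⟩ := P.isPGroup' ⟨w, hw⟩
    exact ⟨j, congrArg (fun t : (P : Subgroup ↥⁅X, X⁆) => ((t : ↥⁅X, X⁆) : A)) hj⟩
  have hQ : IsPGroup q Q := P.isPGroup'.map _
  refine star1 (M := M) s hs4 hsf X hsX hfX hXodd q Q (fun z hz => hcX (hQelim z hz).1)
    ?_ ?_ hQ hqM y (hmemQ y hy ⟨k, hyq⟩) hy
  · intro x hx z hz
    obtain ⟨hz1, j, hj⟩ := hQelim z hz
    refine hmemQ _ ?_ ⟨j, by rw [conj_pow, hj, mul_one, mul_inv_cancel]⟩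
    have e : x * z * x⁻¹ = ⁅x, z⁆ * z := by
      rw [commutatorElement_def]
      group
    rw [e]
    exact (⁅X, X⁆).mul_mem (Subgroup.commutator_mem_commutator hx (hcX hz1)) hz1
  · intro z hz
    obtain ⟨hz1, j, hj⟩ := hQelim z hz
    exact hmemQ _ (hsc z hz1) ⟨j, by rw [conj_pow, hj, mul_one, mul_inv_cancel]⟩

end Abstract

section Main

universe u

instance additiveDMA {V : Type*} [CommGroup V] : DistribMulAction (MulAut V) (Additive V) where
  smul a m := Additive.ofMul (a (Additive.toMul m))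
  one_smul _ := rfl
  mul_smul _ _ _ := rfl
  smul_zero a := congrArg Additive.ofMul (map_one a)
  smul_add a m n := congrArg Additive.ofMul (map_mul a (Additive.toMul m) (Additive.toMul n))

instance additiveFaithful {V : Type*} [CommGroup V] : FaithfulSMul (MulAut V) (Additive V) where
  eq_of_smul_eq_smul {a b} h :=
    MulEquiv.ext (fun v => Additive.ofMul.injective (h (Additive.ofMul v)))

theorem fpf_sub {G : Type*} [Group G] (σ : MulAut G) (hfpf : ∀ g : G, σ g = g → g = 1)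
    (N : Subgroup G) [Finite N] (hN : ∀ x ∈ N, σ x ∈ N) (g : G) (hg : g⁻¹ * σ g ∈ N) :
    g ∈ N := by
  let φ : N →* N :=
    { toFun := fun y => ⟨σ y.1, hN _ y.2⟩
      map_one' := Subtype.ext (map_one σ)
      map_mul' := fun a b => Subtype.ext (map_mul σ a.1 b.1) }
  have hφval : ∀ y : N, (φ y : G) = σ y.1 := fun y => rfl
  have hφ : MonoidHom.FixedPointFree φ := fun y hy =>
    Subtype.ext (hfpf y.1 (congrArg Subtype.val hy))
  obtain ⟨c, hc⟩ := hφ.commutatorMap_surjective ⟨g⁻¹ * σ g, hg⟩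
  have hc' : c.1 * (σ c.1)⁻¹ = g⁻¹ * σ g := by
    have h := congrArg Subtype.val hc
    rw [MonoidHom.commutatorMap_apply, div_eq_mul_inv] at h
    exact h
  have h1 : σ (g * c.1) = g * c.1 := by
    rw [map_mul]
    have e : g * c.1 = σ g * σ c.1 := by
      calc g * c.1 = g * (c.1 * (σ c.1)⁻¹) * σ c.1 := by group
        _ = σ g * σ c.1 := by
          rw [hc']
          group
    rw [e]
  have h2 := hfpf _ h1
  have h3 : g = c.1⁻¹ := eq_inv_of_mul_eq_one_left h2
  rw [h3]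
  exact N.inv_mem c.2

theorem exists_char_abelian (G : Type u) [Group G] [Finite G] [Nontrivial G]
    (hsol : Group.IsSolvable G) :
    ∃ (p : ℕ) (_ : p.Prime) (V : Subgroup G), V ≠ ⊥ ∧ (∀ φ : MulAut G, ∀ v ∈ V, φ v ∈ V) ∧
      (∀ a ∈ V, ∀ b ∈ V, a * b = b * a) ∧ (∀ v ∈ V, v ^ p = 1) := by
  classical
  have hex : ∃ n : ℕ, derivedSeries G n = ⊥ := hsol.solvable
  have hk0 : Nat.find hex ≠ 0 := by
    intro h0
    have h := Nat.find_spec hex
    rw [h0, derivedSeries_zero] at h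
    exact top_ne_bot h
  obtain ⟨j, hj⟩ := Nat.exists_eq_succ_of_ne_zero hk0
  have hDne : derivedSeries G j ≠ ⊥ := Nat.find_min hex (by omega)
  have hDD : ⁅derivedSeries G j, derivedSeries G j⁆ = ⊥ := by
    have h := Nat.find_spec hex
    rw [hj, Nat.succ_eq_add_one, derivedSeries_succ] at h
    exact h
  have hDab : ∀ a ∈ derivedSeries G j, ∀ b ∈ derivedSeries G j, a * b = b * a := by
    intro a ha b hb
    have h : ⁅a, b⁆ ∈ ⁅derivedSeries G j, derivedSeries G j⁆ :=
      Subgroup.commutator_mem_commutator ha hb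
    rw [hDD, Subgroup.mem_bot] at h
    exact commutatorElement_eq_one_iff_mul_comm.mp h
  have hcard : Nat.card (derivedSeries G j) ≠ 1 := fun h =>
    hDne ((Subgroup.eq_bot_iff_card _).mpr h)
  have hp : (Nat.card (derivedSeries G j)).minFac.Prime := Nat.minFac_prime hcard
  haveI : Fact (Nat.card (derivedSeries G j)).minFac.Prime := ⟨hp⟩
  obtain ⟨x, hx⟩ := exists_prime_orderOf_dvd_card' (G := derivedSeries G j)
    (Nat.card (derivedSeries G j)).minFac (Nat.minFac_dvd _)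
  obtain ⟨p, hpdef⟩ : ∃ p : ℕ, p = (Nat.card (derivedSeries G j)).minFac := ⟨_, rfl⟩
  rw [← hpdef] at hp hx
  let V : Subgroup G :=
    { carrier := {v | v ∈ derivedSeries G j ∧ v ^ p = 1}
      mul_mem' := fun {a b} ha hb => ⟨Subgroup.mul_mem _ ha.1 hb.1, by
        have hc : Commute a b := hDab a ha.1 b hb.1
        rw [hc.mul_pow, ha.2, hb.2, mul_one]⟩
      one_mem' := ⟨Subgroup.one_mem _, one_pow p⟩
      inv_mem' := fun {a} ha => ⟨Subgroup.inv_mem _ ha.1, by rw [inv_pow, ha.2, inv_one]⟩ }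
  have hVdef : ∀ v : G, v ∈ V ↔ (v ∈ derivedSeries G j ∧ v ^ p = 1) := fun v => Iff.rfl
  refine ⟨p, hp, V, ?_, ?_, ?_, ?_⟩
  · intro hbot
    have hxV : x.1 ∈ V := by
      refine (hVdef _).mpr ⟨x.2, ?_⟩
      have h : x ^ p = 1 := by
        rw [← hx]
        exact pow_orderOf_eq_one x
      exact congrArg Subtype.val h
    rw [hbot, Subgroup.mem_bot] at hxV
    have hx1 : x = 1 := Subtype.ext hxV
    rw [hx1, orderOf_one] at hx
    exact hp.one_lt.ne hx
  · intro φ v hv
    obtain ⟨hvD, hvp⟩ := (hVdef v).mp hv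
    refine (hVdef _).mpr ⟨?_, by rw [← map_pow, hvp, map_one]⟩
    have hfix := (derivedSeries_characteristic G j).fixed φ
    have h : v ∈ (derivedSeries G j).comap φ.toMonoidHom := by
      rw [hfix]
      exact hvD
    exact h
  · intro a ha b hb
    exact hDab a ((hVdef a).mp ha).1 b ((hVdef b).mp hb).1
  · intro v hv
    exact ((hVdef v).mp hv).2

theorem main (n : ℕ) : ∀ (G : Type u) [Group G] [Finite G], Nat.card G = n →
    Group.IsSolvable G → ∀ σ : MulAut G, σ ^ 4 = 1 → (∀ g : G, σ g = g → g = 1) →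
    Group.IsNilpotent (commutator G) := by
  induction n using Nat.strong_induction_on with
  | _ n ih =>
  intro G _ _ hn hsol σ hσ4 hfpf
  classical
  rcases subsingleton_or_nontrivial G with htriv | hnt
  · exact inferInstance
  have hσ4' : ∀ g : G, σ (σ (σ (σ g))) = g := by
    intro g
    have h := congrArg (fun f : MulAut G => f g) hσ4
    simpa [pow_succ, MulAut.mul_apply] using h
  have hodd : Odd (Nat.card G) := by
    have hP : IsPGroup 2 (Subgroup.zpowers σ) := by
      apply IsPGroup.of_card_dvd_pow (n := 2)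
      rw [Nat.card_zpowers]
      have h : orderOf σ ∣ 4 := orderOf_dvd_of_pow_eq_one hσ4
      norm_num
      exact h
    have h := hP.card_modEq_card_fixedPoints (α := G)
    have hfp : MulAction.fixedPoints (Subgroup.zpowers σ) G = {1} := by
      ext x
      simp only [MulAction.mem_fixedPoints, Set.mem_singleton_iff]
      constructor
      · intro h
        exact hfpf x (h ⟨σ, Subgroup.mem_zpowers σ⟩)
      · rintro rfl g
        exact map_one g.1
    rw [hfp] at h
    have h1 : Nat.card ({1} : Set G) = 1 := by simp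
    rw [h1] at h
    exact Nat.odd_iff.mpr h
  obtain ⟨p, hp, V, hVne, hVchar, hVab, hVp⟩ := exists_char_abelian G hsol
  haveI : Fact p.Prime := ⟨hp⟩
  haveI hVn : V.Normal := ⟨fun v hv g => by
    have h := hVchar (MulAut.conj g) v hv
    rw [MulAut.conj_apply] at h
    exact h⟩
  have hVσ : ∀ v ∈ V, σ v ∈ V := hVchar σ
  have hVmap : V.map σ.toMonoidHom = V := by
    apply le_antisymm
    · rintro _ ⟨v, hv, rfl⟩
      exact hVσ v hv
    · intro v hv
      exact ⟨σ.symm v, hVchar σ.symm v hv, σ.apply_symm_apply v⟩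
  haveI := hsol
  have hIH : Group.IsNilpotent (commutator (G ⧸ V)) := by
    let σ' : MulAut (G ⧸ V) := QuotientGroup.congr V V σ hVmap
    have hσ'mk : ∀ g : G, σ' (QuotientGroup.mk g) = QuotientGroup.mk (σ g) := fun g => rfl
    have hcard : Nat.card (G ⧸ V) < n := by
      rw [← hn, Subgroup.card_eq_card_quotient_mul_card_subgroup V]
      have h1 : 1 < Nat.card V := (Subgroup.one_lt_card_iff_ne_bot V).mpr hVne
      have h2 : 0 < Nat.card (G ⧸ V) := Nat.card_pos
      nlinarith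
    refine ih _ hcard (G ⧸ V) rfl inferInstance σ' ?_ ?_
    · apply MulEquiv.ext
      intro x
      induction x using QuotientGroup.induction_on with
      | H g =>
        simp only [pow_succ, pow_zero, one_mul, MulAut.mul_apply, hσ'mk, hσ4', MulAut.one_apply]
    · intro x
      induction x using QuotientGroup.induction_on with
      | H g =>
        intro h
        rw [hσ'mk, QuotientGroup.eq] at h
        have h' : g⁻¹ * σ g ∈ V := by
          have h2 := V.inv_mem h
          rw [mul_inv_rev, inv_inv] at h2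
          exact h2
        exact (QuotientGroup.eq_one_iff g).mpr (fpf_sub σ hfpf V hVσ g h')
  letI : CommGroup V :=
    { (inferInstance : Group V) with
      mul_comm := fun a b => Subtype.ext (hVab a.1 a.2 b.1 b.2) }
  haveI : Finite (MulAut V) :=
    Finite.of_injective (fun e : MulAut V => (e : V → V)) DFunLike.coe_injective
  let s : MulAut V :=
    { toFun := fun v => ⟨σ v.1, hVσ _ v.2⟩
      invFun := fun v => ⟨σ.symm v.1, hVchar σ.symm _ v.2⟩
      left_inv := fun v => Subtype.ext (σ.symm_apply_apply v.1)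
      right_inv := fun v => Subtype.ext (σ.apply_symm_apply v.1)
      map_mul' := fun a b => Subtype.ext (map_mul σ a.1 b.1) }
  have hsval : ∀ v : V, (s v : G) = σ v.1 := fun v => rfl
  let ρ : G →* MulAut V := MulAut.conjNormal
  have hρval : ∀ (g : G) (v : V), (ρ g v : G) = g * v.1 * g⁻¹ :=
    fun g v => MulAut.conjNormal_apply g v
  have hρσ : ∀ g : G, ρ (σ g) = s * ρ g * s⁻¹ := by
    intro g
    rw [eq_mul_inv_iff_mul_eq]
    apply MulEquiv.ext
    intro v
    apply Subtype.ext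
    rw [MulAut.mul_apply, MulAut.mul_apply, hρval, hsval, hsval, hρval, map_mul, map_mul,
      map_inv]
  have hs4 : s ^ 4 = 1 := by
    apply MulEquiv.ext
    intro v
    apply Subtype.ext
    simp only [pow_succ, pow_zero, one_mul, MulAut.mul_apply, hsval, hσ4', MulAut.one_apply]
  have hsf : ∀ m : Additive V, s • m = m → m = 0 := by
    intro m hm
    have h1 : s (Additive.toMul m) = Additive.toMul m := Additive.ofMul.injective hm
    have h2 := hfpf _ (congrArg Subtype.val h1)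
    exact Additive.toMul.injective (Subtype.ext h2)
  have hsX : ∀ x ∈ ρ.range, s * x * s⁻¹ ∈ ρ.range := by
    rintro _ ⟨g, rfl⟩
    exact ⟨σ g, hρσ g⟩
  have hfX : ∀ x ∈ ρ.range, s * x * s⁻¹ = x → x = 1 := by
    rintro _ ⟨g, rfl⟩ h
    rw [← hρσ] at h
    have h1 : g⁻¹ * σ g ∈ ρ.ker := by
      rw [MonoidHom.mem_ker, map_mul, map_inv, h, inv_mul_cancel]
    have h2 : ∀ x ∈ ρ.ker, σ x ∈ ρ.ker := by
      intro x hx
      rw [MonoidHom.mem_ker] at hx ⊢
      rw [hρσ, hx, mul_one, mul_inv_cancel]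
    exact MonoidHom.mem_ker.mp (fpf_sub σ hfpf ρ.ker h2 g h1)
  have hXodd : ∀ x ∈ ρ.range, Odd (orderOf x) := by
    rintro _ ⟨g, rfl⟩
    exact Odd.of_dvd_nat hodd ((orderOf_map_dvd ρ g).trans (orderOf_dvd_natCard g))
  have hVker : V ≤ ρ.ker := by
    intro v hv
    rw [MonoidHom.mem_ker]
    apply MulEquiv.ext
    intro w
    apply Subtype.ext
    rw [hρval, hVab v hv w.1 w.2, mul_inv_cancel_right, MulAut.one_apply]
  have hnil : Group.IsNilpotent ↥⁅ρ.range, ρ.range⁆ := by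
    let ρ' : G ⧸ V →* MulAut V := QuotientGroup.lift V ρ hVker
    have hrange : (⊤ : Subgroup (G ⧸ V)).map ρ' = ρ.range := by
      ext x
      constructor
      · rintro ⟨y, -, rfl⟩
        induction y using QuotientGroup.induction_on with
        | H g => exact ⟨g, rfl⟩
      · rintro ⟨g, rfl⟩
        exact ⟨QuotientGroup.mk g, Subgroup.mem_top _, rfl⟩
    have hmap : (commutator (G ⧸ V)).map ρ' = ⁅ρ.range, ρ.range⁆ := by
      rw [commutator_def, Subgroup.map_commutator, hrange]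
    haveI := hIH
    have h := Group.nilpotent_of_surjective (ρ'.subgroupMap (commutator (G ⧸ V)))
      (ρ'.subgroupMap_surjective _)
    rw [hmap] at h
    exact h
  have hstar : ∀ q : ℕ, q.Prime → q ≠ p → ∀ y ∈ ⁅ρ.range, ρ.range⁆, ∀ k : ℕ,
      y ^ q ^ k = 1 → y = 1 := by
    intro q hq hqp y hy k hyk
    haveI : Fact q.Prime := ⟨hq⟩
    have hcop : (Nat.card (Additive V)).Coprime q := by
      have hVpg : IsPGroup p V := fun v =>
        ⟨1, by rw [pow_one]; exact Subtype.ext (hVp v.1 v.2)⟩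
      obtain ⟨j, hj⟩ := IsPGroup.iff_card.mp hVpg
      have e : Nat.card (Additive V) = Nat.card V := rfl
      rw [e, hj]
      exact Nat.Coprime.pow_left j ((Nat.coprime_primes hp hq).mpr (Ne.symm hqp))
    exact star2 (M := Additive V) s hs4 hsf ρ.range hsX hfX hXodd hnil q hcop y hy k hyk
  have hcent : ∀ q : ℕ, q.Prime → q ≠ p → ∀ y ∈ commutator G, ∀ k : ℕ, y ^ q ^ k = 1 →
      ∀ v ∈ V, y * v = v * y := by
    intro q hq hqp y hy k hyk v hv
    have h1 : ρ y ∈ ⁅ρ.range, ρ.range⁆ := by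
      have e : (commutator G).map ρ = ⁅ρ.range, ρ.range⁆ := by
        rw [commutator_def, Subgroup.map_commutator, ← MonoidHom.range_eq_map]
      rw [← e]
      exact Subgroup.mem_map_of_mem ρ hy
    have h2 := hstar q hq hqp (ρ y) h1 k (by rw [← map_pow, hyk, map_one])
    have h3 := congrArg (fun f : MulAut V => (f ⟨v, hv⟩ : G)) h2
    simp only [hρval, MulAut.one_apply] at h3
    exact mul_inv_eq_iff_eq_mul.mp h3
  have hKmap : (commutator G).map (QuotientGroup.mk' V) = commutator (G ⧸ V) := by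
    rw [commutator_def, Subgroup.map_commutator, commutator_def,
      ← MonoidHom.range_eq_map, QuotientGroup.range_mk']
  haveI hnil' : Group.IsNilpotent ↥((commutator G).map (QuotientGroup.mk' V)) := by
    rw [hKmap]
    exact hIH
  have hπsurj := (QuotientGroup.mk' V).subgroupMap_surjective (commutator G)
  have hkerdef : ∀ x : commutator G, x ∈ ((QuotientGroup.mk' V).subgroupMap (commutator G)).ker ↔
      x.1 ∈ V := by
    intro x
    rw [MonoidHom.mem_ker]
    constructor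
    · intro h
      have h2 := congrArg Subtype.val h
      exact (QuotientGroup.eq_one_iff x.1).mp h2
    · intro h
      apply Subtype.ext
      exact (QuotientGroup.eq_one_iff x.1).mpr h
  have hsupn : ∀ (r : ℕ) (_ : Fact r.Prime) (P : Sylow r (commutator G)),
      ((P : Subgroup (commutator G)) ⊔
        ((QuotientGroup.mk' V).subgroupMap (commutator G)).ker).Normal := by
    intro r hr P
    have h1 : ((P.mapSurjective hπsurj : Sylow r ↥((commutator G).map (QuotientGroup.mk' V))) :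
        Subgroup ↥((commutator G).map (QuotientGroup.mk' V))).Normal := inferInstance
    rw [Sylow.coe_mapSurjective] at h1
    have h2 := h1.comap ((QuotientGroup.mk' V).subgroupMap (commutator G))
    rw [Subgroup.comap_map_eq] at h2
    exact h2
  have hK : ∀ (r : ℕ) (hr : Fact r.Prime) (P : Sylow r (commutator G)),
      (P : Subgroup (commutator G)).Normal := by
    intro r hr P
    have hN := hsupn r hr P
    by_cases hrp : r = p
    · subst hrp
      have hker : IsPGroup r ((QuotientGroup.mk' V).subgroupMap (commutator G)).ker := by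
        intro x
        refine ⟨1, ?_⟩
        rw [pow_one]
        apply Subtype.ext
        apply Subtype.ext
        exact hVp _ ((hkerdef x.1).mp x.2)
      have h1 := P.isPGroup'.to_sup_of_normal_right hker
      have h2 := P.is_maximal' h1 le_sup_left
      rw [h2] at hN
      exact hN
    · refine ⟨fun y hy k => ?_⟩
      have h1 : k * y * k⁻¹ ∈ (P : Subgroup (commutator G)) ⊔
          ((QuotientGroup.mk' V).subgroupMap (commutator G)).ker :=
        hN.conj_mem y (Subgroup.mem_sup_left hy) k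
      rw [← SetLike.mem_coe, Subgroup.mul_normal, Set.mem_mul] at h1
      obtain ⟨y1, hy1, m, hm, hym⟩ := h1
      obtain ⟨i, hi⟩ := P.isPGroup' ⟨y, hy⟩
      obtain ⟨j, hj⟩ := P.isPGroup' ⟨y1, hy1⟩
      have hi' : y ^ r ^ i = 1 := congrArg Subtype.val hi
      have hj' : y1 ^ r ^ j = 1 := congrArg Subtype.val hj
      have hmV : m.1 ∈ V := (hkerdef m).mp hm
      have hcomm : Commute y1 m := by
        apply Subtype.ext
        exact hcent r hr.out hrp y1.1 y1.2 j (congrArg Subtype.val hj') m.1 hmV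
      have h2 : (y1 * m) ^ r ^ (i + j) = 1 := by
        rw [hym, conj_pow, pow_add, pow_mul, hi', one_pow, mul_one, mul_inv_cancel]
      have h3 : y1 ^ r ^ (i + j) = 1 := by
        rw [pow_add, mul_comm, pow_mul, hj', one_pow]
      rw [hcomm.mul_pow, h3, one_mul] at h2
      have h4 : m ^ p = 1 := by
        apply Subtype.ext
        exact hVp _ hmV
      have h5 : orderOf m ∣ r ^ (i + j) := orderOf_dvd_of_pow_eq_one h2
      have h6 : orderOf m ∣ p := orderOf_dvd_of_pow_eq_one h4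
      have h7 : (r ^ (i + j)).Coprime p :=
        Nat.Coprime.pow_left _ ((Nat.coprime_primes hr.out hp).mpr hrp)
      have h8 : orderOf m = 1 :=
        Nat.dvd_one.mp (by rw [← h7.gcd_eq_one]; exact Nat.dvd_gcd h5 h6)
      have h9 : m = 1 := orderOf_eq_one_iff.mp h8
      rw [h9, mul_one] at hym
      rw [← hym]
      exact hy1
  exact (Group.isNilpotent_of_finite_tfae.out 0 3).mpr hK

end Main

end Cfsg.Agent.Lib.Helper20.FPF4
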