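import Mathlib
import Cfsg.Agent.Lib.Helper20.HSGroup

namespace Cfsg.Agent.Lib.Helper20.HS

open Finset

theorem frob_group_aux {A : Type*} [CommGroup A] {Q : Type*} [Group Q] [Finite Q]
    (φ : Q →* MulAut A) (σ : MulAut Q) (τ : MulAut A) (hστ : ∀ g, τ * φ g = φ (σ g) * τ)
    (r : ℕ) (hr0 : 0 < r) (hfpfQ : ∀ i, 0 < i → i < r → ∀ g, (σ ^ i) g = g → g = 1)
    (hT : ∀ a : A, ∏ i ∈ range r, (τ ^ i) a = 1)
    (hinj : ∀ a : A, a ^ Nat.card Q = 1 → a = 1) : ∀ g a, φ g a = a := by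
  classical
  haveI : Fintype Q := Fintype.ofFinite Q
  have hpow : ∀ (i : ℕ) (g : Q), τ ^ i * φ g = φ ((σ ^ i) g) * τ ^ i := by
    intro i
    induction i with
    | zero =>
      intro g
      simp
    | succ i ih =>
      intro g
      rw [pow_succ, mul_assoc, hστ g, ← mul_assoc, ih (σ g), mul_assoc, ← pow_succ]
      rfl
  have hpow' : ∀ (i : ℕ) (g : Q) (a : A), (τ ^ i) (φ g a) = φ ((σ ^ i) g) ((τ ^ i) a) := by
    intro i g a
    have := congrArg (fun f : MulAut A => f a) (hpow i g)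
    simpa [MulAut.mul_apply] using this
  let S : A →* A := ∏ g : Q, ((φ g : MulAut A) : A →* A)
  have hS : ∀ b : A, S b = ∏ g : Q, φ g b := by
    intro b
    simp only [S, MonoidHom.finset_prod_apply]
    rfl
  have hbij : ∀ i, 0 < i → i < r → Function.Bijective (fun g : Q => g * (σ ^ i) g⁻¹) := by
    intro i hi hir
    apply Finite.injective_iff_bijective.mp
    intro g h hgh
    simp only at hgh
    have h1 : (σ ^ i) (h⁻¹ * g) = h⁻¹ * g := by
      rw [map_mul, map_inv]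
      rw [map_inv, map_inv] at hgh
      generalize (σ ^ i) g = sg at hgh ⊢
      generalize (σ ^ i) h = sh at hgh ⊢
      calc sh⁻¹ * sg = h⁻¹ * (h * sh⁻¹) * sg := by group
        _ = h⁻¹ * (g * sg⁻¹) * sg := by rw [hgh]
        _ = h⁻¹ * g := by group
    have h4 := hfpfQ i hi hir _ h1
    exact (inv_mul_eq_one.mp h4).symm
  have hSa : ∀ a : A, S a = a ^ Nat.card Q := by
    intro a
    obtain ⟨r', rfl⟩ : ∃ r', r = r' + 1 := ⟨r - 1, by omega⟩
    have h1 : ∀ g : Q, φ g (∏ i ∈ range (r' + 1), (τ ^ i) (φ g⁻¹ a)) = 1 := by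
      intro g
      rw [hT, map_one]
    have h2 : ∀ g : Q, ∏ i ∈ range (r' + 1), φ (g * (σ ^ i) g⁻¹) ((τ ^ i) a) = 1 := by
      intro g
      rw [← h1 g, map_prod]
      apply Finset.prod_congr rfl
      intro i _
      rw [hpow', map_mul, MulAut.mul_apply]
    have h3 : ∏ i ∈ range (r' + 1), ∏ g : Q, φ (g * (σ ^ i) g⁻¹) ((τ ^ i) a) = 1 := by
      rw [Finset.prod_comm]
      exact Finset.prod_eq_one (fun g _ => h2 g)
    rw [Finset.prod_range_succ'] at h3
    have h4 : ∀ i ∈ range r', ∏ g : Q, φ (g * (σ ^ (i + 1)) g⁻¹) ((τ ^ (i + 1)) a)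
        = S ((τ ^ (i + 1)) a) := by
      intro i hi
      rw [hS]
      exact Function.Bijective.prod_comp (hbij (i + 1) (by omega) (by
        have := mem_range.mp hi
        omega)) (fun g => φ g ((τ ^ (i + 1)) a))
    rw [Finset.prod_congr rfl h4, ← map_prod] at h3
    have h5 : ∏ i ∈ range r', (τ ^ (i + 1)) a = a⁻¹ := by
      have := hT a
      rw [Finset.prod_range_succ'] at this
      simp only [pow_zero, MulAut.one_apply] at this
      exact eq_inv_of_mul_eq_one_left this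
    rw [h5] at h3
    simp only [pow_zero, map_one, mul_inv_cancel, MulAut.one_apply, Finset.prod_const,
      Finset.card_univ] at h3
    rw [map_inv] at h3
    rw [Nat.card_eq_fintype_card]
    exact (inv_mul_eq_one.mp h3)
  intro g₀ a
  have h1 : φ g₀ (S a) = S a := by
    rw [hS, map_prod]
    have h2 : ∀ g : Q, φ g₀ (φ g a) = φ (g₀ * g) a := by
      intro g
      rw [map_mul, MulAut.mul_apply]
    simp only [h2]
    exact Function.Bijective.prod_comp (Group.mulLeft_bijective g₀) (fun g => φ g a)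
  rw [hSa, map_pow] at h1
  have h2 : (φ g₀ a * a⁻¹) ^ Nat.card Q = 1 := by
    rw [mul_pow, h1, inv_pow, mul_inv_cancel]
  exact mul_inv_eq_one.mp (hinj _ h2)

theorem frob_group_aux2 {A : Type*} [CommGroup A] {Q : Type*} [Group Q] [Finite Q]
    (φ : Q →* MulAut A) (σ : MulAut Q) (τ : MulAut A) (hστ : ∀ g, τ * φ g = φ (σ g) * τ)
    (r : ℕ) (hr : r.Prime) (hσr : σ ^ r = 1) (hτr : τ ^ r = 1)
    (hfpfQ : ∀ g, σ g = g → g = 1) (hfix : ∀ a, τ a = a → a = 1)
    (hinj : ∀ a : A, a ^ Nat.card Q = 1 → a = 1) : ∀ g a, φ g a = a := by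
  classical
  apply frob_group_aux φ σ τ hστ r hr.pos ?_ ?_ hinj
  · intro i hi hir g hg
    apply hfpfQ
    have hcop : Nat.Coprime i r := by
      rw [Nat.coprime_comm]
      exact (Nat.Prime.coprime_iff_not_dvd hr).mpr (fun h => by
        have := Nat.le_of_dvd hi h
        omega)
    obtain ⟨m, -, hm⟩ := Nat.exists_mul_mod_eq_one_of_coprime hcop hr.one_lt
    have h1 : ∀ n : ℕ, ((σ ^ i) ^ n) g = g := by
      intro n
      induction n with
      | zero => simp
      | succ n ih => rw [pow_succ, MulAut.mul_apply, hg, ih]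
    have h2 : (σ ^ i) ^ m = σ := by
      rw [← pow_mul, ← Nat.div_add_mod (i * m) r, hm, pow_add, pow_mul, hσr, one_pow, one_mul,
        pow_one]
    have h3 := h1 m
    rw [h2] at h3
    exact h3
  · intro a
    apply hfix
    rw [map_prod]
    have h1 : ∀ i ∈ range r, τ ((τ ^ i) a) = (τ ^ (i + 1)) a := by
      intro i _
      rw [pow_succ', MulAut.mul_apply]
    rw [Finset.prod_congr rfl h1]
    have h2 := Finset.prod_range_succ (fun i => (τ ^ i) a) r
    have h3 := Finset.prod_range_succ' (fun i => (τ ^ i) a) r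
    rw [h3] at h2
    simp only [hτr, pow_zero] at h2
    exact mul_right_cancel h2

theorem frob_group {A : Type*} [Group A] (hAc : ∀ a b : A, a * b = b * a)
    {Q : Type*} [Group Q] [Finite Q]
    (φ : Q →* MulAut A) (σ : MulAut Q) (τ : MulAut A) (hστ : ∀ g, τ * φ g = φ (σ g) * τ)
    (r : ℕ) (hr : r.Prime) (hσr : σ ^ r = 1) (hτr : τ ^ r = 1)
    (hfpfQ : ∀ g, σ g = g → g = 1) (hfix : ∀ a, τ a = a → a = 1)
    (hinj : ∀ a : A, a ^ Nat.card Q = 1 → a = 1) : ∀ g a, φ g a = a :=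
  @frob_group_aux2 A (CommGroup.mk hAc) Q _ _ φ σ τ hστ r hr hσr hτr hfpfQ hfix hinj

end Cfsg.Agent.Lib.Helper20.HS
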