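import Mathlib
import Cfsg.Agent.Lib.Helper20.HSFrob
import Cfsg.Agent.Lib.Helper20.ESpecial
import Cfsg.Agent.Lib.Helper20.CoprimeAb
import Cfsg.Agent.S3736

namespace Cfsg.Agent.Lib.Helper20.HS

theorem mem_normalizer_of_conj {G : Type*} [Group G] (H : Subgroup G) (g : G)
    (h1 : ∀ n ∈ H, g * n * g⁻¹ ∈ H) (h2 : ∀ n ∈ H, g⁻¹ * n * g ∈ H) :
    g ∈ Subgroup.normalizer (H : Set G) := by
  rw [Subgroup.mem_normalizer_iff]
  intro n
  constructor
  · exact h1 n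
  · intro h
    have := h2 _ h
    have e : g⁻¹ * (g * n * g⁻¹) * g = n := by group
    rwa [e] at this

theorem conj_mem_of_normalizer {G : Type*} [Group G] (H : Subgroup G) (g : G)
    (hg : g ∈ Subgroup.normalizer (H : Set G)) : (∀ n ∈ H, g * n * g⁻¹ ∈ H) ∧
    (∀ n ∈ H, g⁻¹ * n * g ∈ H) := by
  rw [Subgroup.mem_normalizer_iff] at hg
  refine ⟨fun n hn => (hg n).mp hn, fun n hn => ?_⟩
  apply (hg _).mpr
  have e : g * (g⁻¹ * n * g) * g⁻¹ = n := by group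
  rwa [e]

theorem exists_R {G : Type*} [Group G] (Q Z₀ : Subgroup G)
    (hc : ∀ z ∈ Z₀, ∀ g ∈ Q, g * z = z * g) :
    ∃ R : Subgroup G, ∀ g, g ∈ R ↔ g ∈ Q ∧ ∀ h ∈ Q, h * g * h⁻¹ * g⁻¹ ∈ Z₀ := by
  refine ⟨{ carrier := {g | g ∈ Q ∧ ∀ h ∈ Q, h * g * h⁻¹ * g⁻¹ ∈ Z₀}
            mul_mem' := ?_
            one_mem' := ?_
            inv_mem' := ?_ }, fun g => Iff.rfl⟩
  · rintro a b ⟨ha, ha'⟩ ⟨hb, hb'⟩
    refine ⟨mul_mem ha hb, fun h hh => ?_⟩
    have h1 := ha' h hh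
    have h2 := hb' h hh
    have h3 : a * (h * b * h⁻¹ * b⁻¹) = (h * b * h⁻¹ * b⁻¹) * a := hc _ h2 a ha
    have e : h * (a * b) * h⁻¹ * (a * b)⁻¹ = (h * a * h⁻¹ * a⁻¹) * (a * (h * b * h⁻¹ * b⁻¹)) * a⁻¹ := by
      group
    rw [e, h3]
    have e2 : h * a * h⁻¹ * a⁻¹ * (h * b * h⁻¹ * b⁻¹ * a) * a⁻¹
        = (h * a * h⁻¹ * a⁻¹) * (h * b * h⁻¹ * b⁻¹) := by group
    rw [e2]
    exact mul_mem h1 h2
  · refine ⟨one_mem _, fun h hh => ?_⟩
    simp
  · rintro a ⟨ha, ha'⟩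
    refine ⟨inv_mem ha, fun h hh => ?_⟩
    have h1 := ha' h hh
    have h3 : a * (h * a * h⁻¹ * a⁻¹) = (h * a * h⁻¹ * a⁻¹) * a := hc _ h1 a ha
    have e : h * a⁻¹ * h⁻¹ * a⁻¹⁻¹ = (a⁻¹ * (a * (h * a * h⁻¹ * a⁻¹)))⁻¹ := by
      rw [h3]
      group
    rw [e, inv_mul_cancel_left]
    exact inv_mem h1

theorem hs_aut (p : ℕ) [Fact p.Prime] {A : Type*} [Group A] [Finite A]
    (hAc : ∀ a b : A, a * b = b * a) (hA : ∀ a : A, a ^ p = 1)
    {r : ℕ} (hr : r.Prime) (hrp : r ≠ p) (τ : MulAut A) (hτr : τ ^ r = 1)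
    (Q : Subgroup (MulAut A)) (hτQ : τ ∈ Subgroup.normalizer (Q : Set (MulAut A)))
    (hQp : ¬ p ∣ Nat.card Q) (Z : Subgroup (MulAut A)) (hZQ : Z ≤ Q) (hZne : Z ≠ ⊥)
    (hZc : ∀ z ∈ Z, ∀ g ∈ Q, z * g = g * z)
    (hcomm : ∀ g ∈ Q, ∀ h ∈ Q, g * h * g⁻¹ * h⁻¹ ∈ Z)
    (hND : ∀ Z₀ : Subgroup (MulAut A), Z₀ ≤ Z → Z₀ ≠ Z → ∀ g ∈ Q,
      (∀ h ∈ Q, h * g * h⁻¹ * g⁻¹ ∈ Z₀) → g ∈ Z)
    (hτZ : ∀ z ∈ Z, τ * z = z * τ)
    (hfpf : ∀ g ∈ Q, τ * g * τ⁻¹ * g⁻¹ ∈ Z → g ∈ Z)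
    (hfix : ∀ a, τ a = a → a = 1) :
    Z.relIndex Q ≤ (r - 1) ^ 2 ∧ r ∣ Z.relIndex Q - 1 ∧ ∃ m : ℕ, Z.relIndex Q = m * m := by
  classical
  let σ : MulAut ↥Q := Q.normalizerMonoidHom ⟨τ, hτQ⟩
  have hσ : ∀ (g : ↥Q), ((σ g : ↥Q) : MulAut A) = τ * g * τ⁻¹ := fun g => rfl
  have key := hs_group p (A := A) (Q := ↥Q) hAc hA Q.subtype (Z.subgroupOf Q)
    (fun z hz g => Subtype.ext (hZc z hz g g.2))
    (fun g h => by
      rw [Subgroup.mem_subgroupOf]
      simpa using hcomm g g.2 h h.2)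
    (by
      intro Z₀ hle hne g hg
      rw [Subgroup.mem_subgroupOf]
      refine hND (Z₀.map Q.subtype) ?_ ?_ g g.2 ?_
      · rintro _ ⟨y, hy, rfl⟩
        exact Subgroup.mem_subgroupOf.mp (hle hy)
      · intro h
        apply hne
        ext y
        rw [Subgroup.mem_subgroupOf, ← h]
        constructor
        · intro hy
          exact ⟨y, hy, rfl⟩
        · rintro ⟨y', hy', hyy⟩
          have : y' = y := Subtype.ext hyy
          rwa [← this]
      · intro h hh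
        refine ⟨(⟨h, hh⟩ : ↥Q) * g * (⟨h, hh⟩ : ↥Q)⁻¹ * g⁻¹, hg (⟨h, hh⟩ : ↥Q), ?_⟩
        simp)
    (by
      obtain ⟨z, hz1⟩ := Subgroup.ne_bot_iff_exists_ne_one.mp hZne
      refine ⟨⟨z, hZQ z.2⟩, Subgroup.mem_subgroupOf.mpr z.2, ?_⟩
      intro h
      apply hz1
      apply Subtype.ext
      exact h)
    σ τ
    (by
      intro g
      have h1 : (Q.subtype (σ g) : MulAut A) = τ * g * τ⁻¹ := hσ g
      rw [h1]
      simp)
    (by
      intro z hz
      apply Subtype.ext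
      rw [hσ, hτZ z (Subgroup.mem_subgroupOf.mp hz)]
      group)
    (by
      intro g hg
      rw [Subgroup.mem_subgroupOf] at hg ⊢
      apply hfpf g g.2
      simpa [hσ] using hg)
    r hr hrp hQp
    (by
      have h1 : σ ^ r = Q.normalizerMonoidHom (⟨τ, hτQ⟩ ^ r) := (map_pow _ _ _).symm
      rw [h1]
      have h2 : (⟨τ, hτQ⟩ : Subgroup.normalizer (Q : Set (MulAut A))) ^ r = 1 :=
        Subtype.ext (by simpa using hτr)
      rw [h2, map_one])
    hτr hfix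
  exact key

theorem frob_aut {A : Type*} [Group A] [Finite A] (hAc : ∀ a b : A, a * b = b * a)
    {r : ℕ} (hr : r.Prime) (τ : MulAut A) (hτr : τ ^ r = 1)
    (Q : Subgroup (MulAut A)) (hτQ : τ ∈ Subgroup.normalizer (Q : Set (MulAut A)))
    (hinj : ∀ a : A, a ^ Nat.card Q = 1 → a = 1)
    (hfpfQ : ∀ g ∈ Q, τ * g = g * τ → g = 1)
    (hfix : ∀ a, τ a = a → a = 1) : Q = ⊥ := by
  classical
  let σ : MulAut ↥Q := Q.normalizerMonoidHom ⟨τ, hτQ⟩
  have hσ : ∀ (g : ↥Q), ((σ g : ↥Q) : MulAut A) = τ * g * τ⁻¹ := fun g => rfl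
  have key := frob_group hAc (Q := ↥Q) Q.subtype σ τ
    (by
      intro g
      have h1 : (Q.subtype (σ g) : MulAut A) = τ * g * τ⁻¹ := hσ g
      rw [h1]
      simp)
    r hr
    (by
      have h1 : σ ^ r = Q.normalizerMonoidHom (⟨τ, hτQ⟩ ^ r) := (map_pow _ _ _).symm
      rw [h1]
      have h2 : (⟨τ, hτQ⟩ : Subgroup.normalizer (Q : Set (MulAut A))) ^ r = 1 :=
        Subtype.ext (by simpa using hτr)
      rw [h2, map_one])
    hτr
    (by
      intro g hg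
      apply Subtype.ext
      apply hfpfQ g g.2
      have h1 := hσ g
      rw [hg] at h1
      calc τ * g = τ * g * τ⁻¹ * τ := by group
        _ = g * τ := by rw [← h1])
    hfix hinj
  rw [eq_bot_iff]
  intro g hg
  rw [Subgroup.mem_bot]
  ext a
  exact key ⟨g, hg⟩ a

theorem main_aut {p q r : ℕ} (hp : p.Prime) (hq : q.Prime) (hr : r.Prime) (hpq : p ≠ q)
    (hpr : p ≠ r) (hqr : q ≠ r)
    {A : Type*} [Group A] [Finite A] (hAc : ∀ a b : A, a * b = b * a) (hA : ∀ a : A, a ^ p = 1)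
    (τ : MulAut A) (hτr : τ ^ r = 1) (Q : Subgroup (MulAut A)) (hQ : IsPGroup q Q)
    (hτQ : τ ∈ Subgroup.normalizer (Q : Set (MulAut A)))
    (hfix : ∀ a, τ a = a → a = 1)
    (hexc : q = 2 → (∃ n : ℕ, r = 2 ^ n + 1) → ∀ g ∈ Q, ∀ h ∈ Q, g * h = h * g) :
    ∀ g ∈ Q, τ * g = g * τ := by
  classical
  haveI : Fact p.Prime := ⟨hp⟩
  haveI : Fact q.Prime := ⟨hq⟩
  haveI : Fact r.Prime := ⟨hr⟩
  by_contra hcon
  push Not at hcon
  obtain ⟨Q₁, hQ₁le, ⟨hQ₁Q, hτQ₁, hQ₁nc⟩, hQ₁min⟩ := exists_minimal_le_of_wellFoundedLT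
    (fun U : Subgroup (MulAut A) => U ≤ Q ∧ τ ∈ Subgroup.normalizer (U : Set (MulAut A)) ∧
      ∃ g ∈ U, τ * g ≠ g * τ) Q ⟨le_refl Q, hτQ, hcon⟩
  have hτ1 : τ ≠ 1 := by
    rintro rfl
    obtain ⟨g, -, hg⟩ := hQ₁nc
    exact hg (by simp)
  set X : Subgroup (MulAut A) := Subgroup.zpowers τ with hXdef
  have hτX : τ ∈ X := Subgroup.mem_zpowers τ
  have hXcard : Nat.card X = r := by
    rw [hXdef, Nat.card_zpowers]
    have h1 : orderOf τ ∣ r := orderOf_dvd_of_pow_eq_one hτr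
    rcases (Nat.dvd_prime hr).mp h1 with h | h
    · exact absurd (orderOf_eq_one_iff.mp h) hτ1
    · exact h
  have hXcomm : ∀ g : MulAut A, τ * g = g * τ → ∀ a ∈ X, a * g = g * a := by
    intro g hg a ha
    obtain ⟨n, rfl⟩ := Subgroup.mem_zpowers_iff.mp ha
    exact (Commute.zpow_left (show Commute τ g from hg) n).eq
  have hXnorm : ∀ U : Subgroup (MulAut A), τ ∈ Subgroup.normalizer (U : Set (MulAut A)) →
      X ≤ Subgroup.normalizer (U : Set (MulAut A)) := fun U hU => Subgroup.zpowers_le.mpr hU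
  have hcX : ∀ U : Subgroup (MulAut A), (∀ g ∈ U, τ * g = g * τ) → ⁅U, X⁆ = ⊥ := by
    intro U hU
    rw [Subgroup.commutator_eq_bot_iff_le_centralizer]
    intro g hg
    rw [Subgroup.mem_centralizer_iff]
    intro a ha
    exact hXcomm g (hU g hg) a ha
  have hXc : ∀ U : Subgroup (MulAut A), ⁅U, X⁆ = ⊥ → ∀ g ∈ U, τ * g = g * τ := by
    intro U hU g hg
    rw [Subgroup.commutator_eq_bot_iff_le_centralizer] at hU
    exact Subgroup.mem_centralizer_iff.mp (hU hg) τ hτX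
  have hP : IsPGroup q Q₁ := hQ.to_le hQ₁Q
  obtain ⟨k, hk⟩ := IsPGroup.iff_card.mp hP
  have hAp : (Nat.card X).Coprime q := by
    rw [hXcard]
    exact (Nat.coprime_primes hr hq).mpr hqr.symm
  have hnt : ⁅Q₁, X⁆ ≠ ⊥ := by
    intro h
    obtain ⟨g, hg, hne⟩ := hQ₁nc
    exact hne (hXc Q₁ h g hg)
  have hmin : ∀ U : Subgroup (MulAut A), U < Q₁ → X ≤ Subgroup.normalizer (U : Set (MulAut A)) →
      ⁅U, X⁆ = ⊥ := by
    intro U hU hXU
    apply hcX
    by_contra h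
    push Not at h
    have := hQ₁min ⟨hU.le.trans hQ₁Q, hXU hτX, h⟩ hU.le
    exact (lt_irrefl _ (lt_of_lt_of_le hU this))
  obtain ⟨hQX, hstruct, hirr, -⟩ := Cfsg.Agent.S3736.result X X Q₁ hP (hXnorm Q₁ hτQ₁) (le_refl X)
    Subgroup.le_normalizer hAp hnt hmin
  have hpcard : ¬ p ∣ Nat.card Q₁ := by
    rw [hk]
    intro h
    exact hpq ((Nat.prime_dvd_prime_iff_eq hp hq).mp (hp.dvd_of_dvd_pow h))
  have hQ₁pow : ∀ g ∈ Q₁, g ^ (q ^ k) = 1 := by
    intro g hg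
    have h1 : (⟨g, hg⟩ : ↥Q₁) ^ (q ^ k) = 1 := by
      rw [← hk]
      exact pow_card_eq_one'
    exact congrArg Subtype.val h1
  rcases hstruct with hea | hsp
  · have hbot : Q₁ = ⊥ := by
      apply frob_aut hAc hr τ hτr Q₁ hτQ₁ ?_ ?_ hfix
      · intro a ha
        have h1 : orderOf a ∣ Nat.card Q₁ := orderOf_dvd_of_pow_eq_one ha
        have h2 : orderOf a ∣ p := orderOf_dvd_of_pow_eq_one (hA a)
        rcases (Nat.dvd_prime hp).mp h2 with h | h
        · exact orderOf_eq_one_iff.mp h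
        · rw [h] at h1
          exact absurd h1 hpcard
      · intro g hg hτg
        have h1 : g ∈ (⊥ : Subgroup (MulAut A)) := by
          apply Cfsg.Agent.Lib.Helper20.CoprimeAb.mem_of_fixed_mod X Q₁ ⊥ hP (hXnorm Q₁ hτQ₁) bot_le
            ?_ hQX.ge hAp g hg ?_
          · rw [Subgroup.commutator_le]
            intro a ha b hb
            rw [Subgroup.mem_bot, commutatorElement_eq_one_iff_mul_comm]
            exact congrArg Subtype.val (hea.1.is_comm.comm ⟨a, ha⟩ ⟨b, hb⟩)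
          · intro a ha
            rw [Subgroup.mem_bot, hXcomm g hτg a ha]
            group
        exact Subgroup.mem_bot.mp h1
    obtain ⟨g, hg, hne⟩ := hQ₁nc
    rw [hbot, Subgroup.mem_bot] at hg
    rw [hg] at hne
    exact hne (by simp)
  · have hcommQ := hsp.2.2
    have hfrat := hsp.2.1
    set Z : Subgroup (MulAut A) := (Subgroup.center ↥Q₁).map Q₁.subtype with hZdef
    have hZQ : Z ≤ Q₁ := Subgroup.map_subtype_le _
    have hmemZ : ∀ g : MulAut A, g ∈ Z ↔ g ∈ Q₁ ∧ ∀ h ∈ Q₁, h * g = g * h :=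
      fun g => ESpecial.mem_center_map_iff Q₁ g
    have hQ₁ne : ∃ g ∈ Q₁, g ∉ Z := by
      obtain ⟨g, hg, hne⟩ := hQ₁nc
      by_contra h
      push Not at h
      have hctop : Subgroup.center ↥Q₁ = ⊤ := by
        rw [eq_top_iff]
        intro y _
        rw [Subgroup.mem_center_iff]
        intro h'
        apply Subtype.ext
        exact ((hmemZ y).mp (h y y.2)).2 h' h'.2
      have hcbot : commutator ↥Q₁ = ⊥ := (commutator_eq_bot_iff_center_eq_top _).mpr hctop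
      rw [hcommQ, hctop] at hcbot
      have h1 : (⟨g, hg⟩ : ↥Q₁) ∈ (⊤ : Subgroup ↥Q₁) := Subgroup.mem_top _
      rw [hcbot, Subgroup.mem_bot] at h1
      have hg1 : g = 1 := congrArg Subtype.val h1
      rw [hg1] at hne
      exact hne (by simp)
    have hZne : Z ≠ ⊥ := by
      intro h
      have hcb : Subgroup.center ↥Q₁ = ⊥ := by
        rw [eq_bot_iff]
        intro y hy
        have h1 : (y : MulAut A) ∈ Z := ⟨y, hy, rfl⟩
        rw [h, Subgroup.mem_bot] at h1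
        exact Subgroup.mem_bot.mpr (Subtype.ext h1)
      have hctop : Subgroup.center ↥Q₁ = ⊤ := by
        rw [← commutator_eq_bot_iff_center_eq_top, hcommQ, hcb]
      obtain ⟨g, hg, hgZ⟩ := hQ₁ne
      apply hgZ
      have h1 : (⟨g, hg⟩ : ↥Q₁) ∈ Subgroup.center ↥Q₁ := by
        rw [hctop]
        trivial
      exact ⟨⟨g, hg⟩, h1, rfl⟩
    have hZlt : Z < Q₁ := by
      refine lt_of_le_of_ne hZQ ?_
      intro h
      obtain ⟨g, hg, hgZ⟩ := hQ₁ne
      exact hgZ (h ▸ hg)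
    obtain ⟨hτc1, hτc2⟩ := conj_mem_of_normalizer Q₁ τ hτQ₁
    have hZchar : ∀ t : MulAut A, (∀ n ∈ Q₁, t * n * t⁻¹ ∈ Q₁) → (∀ n ∈ Q₁, t⁻¹ * n * t ∈ Q₁) →
        ∀ z ∈ Z, t * z * t⁻¹ ∈ Z := by
      intro t ht1 ht2 z hz
      rw [hmemZ] at hz ⊢
      refine ⟨ht1 z hz.1, fun h hh => ?_⟩
      have h1 := hz.2 (t⁻¹ * h * t) (ht2 h hh)
      calc h * (t * z * t⁻¹) = t * ((t⁻¹ * h * t) * z) * t⁻¹ := by group
        _ = t * (z * (t⁻¹ * h * t)) * t⁻¹ := by rw [h1]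
        _ = t * z * t⁻¹ * h := by group
    have hτZn : τ ∈ Subgroup.normalizer (Z : Set (MulAut A)) := by
      apply mem_normalizer_of_conj
      · exact hZchar τ hτc1 hτc2
      · intro n hn
        have := hZchar τ⁻¹ (by simpa using hτc2) (by simpa using hτc1) n hn
        simpa using this
    have hτZ : ∀ z ∈ Z, τ * z = z * τ := hXc Z (hmin Z hZlt (hXnorm Z hτZn))
    have hZc : ∀ z ∈ Z, ∀ g ∈ Q₁, z * g = g * z :=
      fun z hz g hg => (((hmemZ z).mp hz).2 g hg).symm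
    have hcomm' : ∀ g ∈ Q₁, ∀ h ∈ Q₁, g * h * g⁻¹ * h⁻¹ ∈ Z := by
      intro g hg h hh
      have := ESpecial.comm_mem_center hcommQ ⟨g, hg⟩ ⟨h, hh⟩
      exact ⟨_, this, rfl⟩
    have hcommle : ⁅Q₁, Q₁⁆ ≤ Z := by
      rw [Subgroup.commutator_le]
      intro a ha b hb
      rw [commutatorElement_def]
      exact hcomm' a ha b hb
    have hfratZ : (frattini ↥Q₁).map Q₁.subtype = Z := by rw [hfrat]
    have hND : ∀ Z₀ : Subgroup (MulAut A), Z₀ ≤ Z → Z₀ ≠ Z → ∀ g ∈ Q₁,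
        (∀ h ∈ Q₁, h * g * h⁻¹ * g⁻¹ ∈ Z₀) → g ∈ Z := by
      intro Z₀ hle hne g hg hall
      obtain ⟨R, hR⟩ := exists_R Q₁ Z₀ (fun z hz g hg => (hZc z (hle hz) g hg).symm)
      have hRinv : ∀ t : MulAut A, (∀ n ∈ Q₁, t * n * t⁻¹ ∈ Q₁) → (∀ n ∈ Q₁, t⁻¹ * n * t ∈ Q₁) →
          (∀ z ∈ Z, t * z = z * t) → ∀ n ∈ R, t * n * t⁻¹ ∈ R := by
        intro t ht1 ht2 htZ n hn
        rw [hR] at hn ⊢
        refine ⟨ht1 n hn.1, fun h hh => ?_⟩
        have h1 := hn.2 (t⁻¹ * h * t) (ht2 h hh)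
        have h2 := htZ _ (hle h1)
        have e : h * (t * n * t⁻¹) * h⁻¹ * (t * n * t⁻¹)⁻¹
            = t * ((t⁻¹ * h * t) * n * (t⁻¹ * h * t)⁻¹ * n⁻¹) * t⁻¹ := by group
        rw [e, h2, mul_inv_cancel_right]
        exact h1
      have hτR : τ ∈ Subgroup.normalizer (R : Set (MulAut A)) := by
        apply mem_normalizer_of_conj
        · exact hRinv τ hτc1 hτc2 hτZ
        · intro n hn
          have := hRinv τ⁻¹ (by simpa using hτc2) (by simpa using hτc1) (fun z hz => by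
            have h3 := hτZ z hz
            calc τ⁻¹ * z = τ⁻¹ * (z * τ) * τ⁻¹ := by group
              _ = τ⁻¹ * (τ * z) * τ⁻¹ := by rw [h3]
              _ = z * τ⁻¹ := by group) n hn
          simpa using this
      have hZR : Z ≤ R := by
        intro z hz
        rw [hR]
        refine ⟨hZQ hz, fun h hh => ?_⟩
        have h3 := hZc z hz h hh
        have e : h * z * h⁻¹ * z⁻¹ = 1 := by
          rw [← h3]
          group
        rw [e]
        exact one_mem _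
      have hRQ : R ≤ Q₁ := fun n hn => ((hR n).mp hn).1
      rcases hirr R (hfratZ ▸ hZR) hRQ (hXnorm R hτR) with h | h
      · rw [hfratZ] at h
        rw [← h, hR]
        exact ⟨hg, hall⟩
      · exfalso
        apply hne
        apply le_antisymm hle
        rintro _ ⟨y, hy, rfl⟩
        rw [← hcommQ] at hy
        have hle2 : commutator ↥Q₁ ≤ Z₀.subgroupOf Q₁ := by
          rw [commutator_def, Subgroup.commutator_le]
          intro a _ b _
          rw [Subgroup.mem_subgroupOf, commutatorElement_def]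
          have hb : (b : MulAut A) ∈ R := by
            rw [h]
            exact b.2
          have := ((hR b).mp hb).2 a a.2
          simpa using this
        exact Subgroup.mem_subgroupOf.mp (hle2 hy)
    have hfpf : ∀ g ∈ Q₁, τ * g * τ⁻¹ * g⁻¹ ∈ Z → g ∈ Z := by
      intro g hg hz
      set z := τ * g * τ⁻¹ * g⁻¹ with hzdef
      have hxg : τ * g * τ⁻¹ = z * g := by
        rw [hzdef]
        group
      have hpow : ∀ n : ℕ, τ ^ n * g * (τ ^ n)⁻¹ = z ^ n * g := by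
        intro n
        induction n with
        | zero => simp
        | succ n ih =>
          have hc : τ * z ^ n = z ^ n * τ :=
            (Commute.pow_right (show Commute τ z from hτZ z hz) n).eq
          calc τ ^ (n + 1) * g * (τ ^ (n + 1))⁻¹ = τ * (τ ^ n * g * (τ ^ n)⁻¹) * τ⁻¹ := by
                rw [pow_succ']
                group
            _ = τ * (z ^ n * g) * τ⁻¹ := by rw [ih]
            _ = (τ * z ^ n) * τ⁻¹ * (τ * g * τ⁻¹) := by group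
            _ = z ^ n * τ * τ⁻¹ * (z * g) := by rw [hc, hxg]
            _ = z ^ (n + 1) * g := by
                rw [pow_succ]
                group
      have hzr : z ^ r = 1 := by
        have h1 := hpow r
        rw [hτr] at h1
        simp only [one_mul, inv_one, mul_one] at h1
        exact (mul_eq_right.mp h1.symm)
      have hz1 : z = 1 := by
        have h1 : orderOf z ∣ r := orderOf_dvd_of_pow_eq_one hzr
        have h2 : orderOf z ∣ q ^ k := orderOf_dvd_of_pow_eq_one (hQ₁pow z (hZQ hz))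
        have h3 : orderOf z ∣ Nat.gcd r (q ^ k) := Nat.dvd_gcd h1 h2
        have h4 : Nat.gcd r (q ^ k) = 1 :=
          Nat.Coprime.pow_right k ((Nat.coprime_primes hr hq).mpr hqr.symm)
        rw [h4] at h3
        exact orderOf_eq_one_iff.mp (Nat.dvd_one.mp h3)
      have hτg : τ * g = g * τ := by
        have h1 := mul_inv_eq_one.mp hz1
        exact mul_inv_eq_iff_eq_mul.mp h1
      apply CoprimeAb.mem_of_fixed_mod X Q₁ Z hP (hXnorm Q₁ hτQ₁) hZQ hcommle hQX.ge hAp g hg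
      intro a ha
      rw [hXcomm g hτg a ha]
      have e : g⁻¹ * (g * a * a⁻¹) = 1 := by group
      rw [e]
      exact one_mem _
    obtain ⟨h1, h2, m, hm⟩ := hs_aut p hAc hA hr hpr.symm τ hτr Q₁ hτQ₁ hpcard Z hZQ hZne hZc
      hcomm' hND hτZ hfpf hfix
    have hdvd : Z.relIndex Q₁ ∣ q ^ k := by
      rw [← hk]
      exact Subgroup.relIndex_dvd_card Z Q₁
    obtain ⟨e, -, he⟩ := (Nat.dvd_prime_pow hq).mp hdvd
    have hM1 : 1 < Z.relIndex Q₁ := by
      have h0 : Z.relIndex Q₁ ≠ 1 := by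
        intro h
        have := Subgroup.relIndex_eq_one.mp h
        exact (lt_irrefl _ (lt_of_lt_of_le hZlt this))
      have h0' : 0 < Z.relIndex Q₁ := by
        rw [he]
        exact pow_pos hq.pos e
      omega
    obtain ⟨hq2, n, hrn, -⟩ := arith q r (Z.relIndex Q₁) m e hq hr he hm hM1 h2 h1
    have hab := hexc hq2 ⟨n, hrn⟩
    obtain ⟨g, hg, hgZ⟩ := hQ₁ne
    apply hgZ
    rw [hmemZ]
    exact ⟨hg, fun h hh => hab h (hQ₁Q hh) g (hQ₁Q hg)⟩

end Cfsg.Agent.Lib.Helper20.HS
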