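import Mathlib
import Cfsg.Prelude.Def_Local
import Cfsg.Agent.Lib.Helper9.Cores
import Cfsg.Agent.S0635

set_option autoImplicit false

namespace Cfsg.Agent.Lib.Helper20.UpperSeries

open Cfsg
open Cfsg.Agent.Lib.Helper9

universe u

section basic

variable {G : Type u} [Group G]

theorem upper_le_succ (p : ℕ) (j : ℕ) :
    (upperPSeries p G j).1 ≤ (upperPSeries p G (j + 1)).1 := by
  have key : ∀ C : Subgroup (G ⧸ (upperPSeries p G j).1),
      (upperPSeries p G j).1 ≤ C.comap (QuotientGroup.mk' (upperPSeries p G j).1) := by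
    intro C x hx
    rw [Subgroup.mem_comap]
    have h1 : QuotientGroup.mk' (upperPSeries p G j).1 x = 1 :=
      (QuotientGroup.eq_one_iff x).mpr hx
    rw [h1]
    exact C.one_mem
  by_cases hj : Even j
  · rw [Cfsg.Agent.S0634.ups_succ_even p G j hj]
    exact key _
  · rw [Cfsg.Agent.S0634.ups_succ_odd p G j hj]
    exact key _

theorem relIndex_comap_mk (N : Subgroup G) [N.Normal] (C : Subgroup (G ⧸ N)) :
    N.relIndex (C.comap (QuotientGroup.mk' N)) = Nat.card C := by
  have h := Subgroup.relIndex_ker (C.comap (QuotientGroup.mk' N)) (QuotientGroup.mk' N)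
  rw [QuotientGroup.ker_mk',
    Subgroup.map_comap_eq_self_of_surjective (QuotientGroup.mk'_surjective N)] at h
  exact h

theorem relIndex_upper_even [Finite G] (p : ℕ) (j : ℕ) (hj : Even j) :
    ((upperPSeries p G j).1.relIndex (upperPSeries p G (j + 1)).1).Coprime p := by
  rw [Cfsg.Agent.S0634.ups_succ_even p G j hj, relIndex_comap_mk]
  exact pPrimeCore_coprime p _

theorem relIndex_upper_odd [Finite G] (p : ℕ) [Fact p.Prime] (j : ℕ) (hj : ¬ Even j) :
    ∃ m : ℕ, (upperPSeries p G j).1.relIndex (upperPSeries p G (j + 1)).1 = p ^ m := by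
  rw [Cfsg.Agent.S0634.ups_succ_odd p G j hj, relIndex_comap_mk]
  exact IsPGroup.iff_card.mp (pCore_isPGroup p _)

def IsChain (p k : ℕ) (N : ℕ → Subgroup G) : Prop :=
  N 0 = ⊥ ∧ N (2 * k + 1) = ⊤ ∧ (∀ j, (N j).Normal) ∧ (∀ j, N j ≤ N (j + 1)) ∧
    (∀ j, Even j → ((N j).relIndex (N (j + 1))).Coprime p) ∧
    (∀ j, ¬ Even j → ∃ m : ℕ, (N j).relIndex (N (j + 1)) = p ^ m)

theorem le_upper_of_isChain [Finite G] {p : ℕ} [Fact p.Prime] {k : ℕ} {N : ℕ → Subgroup G}
    (h : IsChain p k N) : ∀ j, N j ≤ (upperPSeries p G j).1 := by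
  obtain ⟨h0, _, hn, hmono, heven, hodd⟩ := h
  intro j
  induction j with
  | zero =>
    rw [h0]
    exact bot_le
  | succ j ih =>
    have hnm : ((N (j + 1)).map (QuotientGroup.mk' (upperPSeries p G j).1)).Normal :=
      Subgroup.Normal.map (hn (j + 1)) _ (QuotientGroup.mk'_surjective _)
    have hcard : Nat.card ((N (j + 1)).map (QuotientGroup.mk' (upperPSeries p G j).1)) ∣
        (N j).relIndex (N (j + 1)) := by
      have h1 := Subgroup.relIndex_ker (N (j + 1)) (QuotientGroup.mk' (upperPSeries p G j).1)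
      rw [QuotientGroup.ker_mk'] at h1
      rw [← h1]
      exact Subgroup.relIndex_dvd_of_le_left _ ih
    by_cases hj : Even j
    · rw [Cfsg.Agent.S0634.ups_succ_even p G j hj]
      intro x hx
      rw [Subgroup.mem_comap]
      exact le_pPrimeCore hnm (Nat.Coprime.coprime_dvd_left hcard (heven j hj))
        (Subgroup.mem_map_of_mem _ hx)
    · rw [Cfsg.Agent.S0634.ups_succ_odd p G j hj]
      intro x hx
      rw [Subgroup.mem_comap]
      obtain ⟨m, hm⟩ := hodd j hj
      rw [hm] at hcard
      obtain ⟨m', _, hm'⟩ := (Nat.dvd_prime_pow Fact.out).mp hcard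
      exact le_pCore hnm (IsPGroup.of_card hm') (Subgroup.mem_map_of_mem _ hx)

theorem upper_isChain [Finite G] (p : ℕ) [Fact p.Prime] (k : ℕ) (h : PLengthLE p k G) :
    IsChain p k (fun j => (upperPSeries p G j).1) :=
  ⟨rfl, h, fun j => (upperPSeries p G j).2, upper_le_succ p, relIndex_upper_even p,
    relIndex_upper_odd p⟩

theorem pl_of_isChain [Finite G] {p : ℕ} [Fact p.Prime] {k : ℕ} {N : ℕ → Subgroup G}
    (h : IsChain p k N) : PLengthLE p k G := by
  have h1 := le_upper_of_isChain h (2 * k + 1)
  rw [h.2.1] at h1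
  exact top_le_iff.mp h1

theorem pl_quotient [Finite G] {p : ℕ} [Fact p.Prime] {k : ℕ} (h : PLengthLE p k G)
    (K : Subgroup G) [K.Normal] : PLengthLE p k (G ⧸ K) := by
  obtain ⟨h0, htop, hn, hmono, heven, hodd⟩ := upper_isChain p k h
  apply pl_of_isChain (N := fun j => ((upperPSeries p G j).1).map (QuotientGroup.mk' K))
  have hdvd : ∀ j, (((upperPSeries p G j).1).map (QuotientGroup.mk' K)).relIndex
      (((upperPSeries p G (j + 1)).1).map (QuotientGroup.mk' K)) ∣
      (upperPSeries p G j).1.relIndex (upperPSeries p G (j + 1)).1 := by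
    intro j
    rw [Subgroup.relIndex_map_map, QuotientGroup.ker_mk']
    have e : (upperPSeries p G (j + 1)).1 ⊔ K =
        ((upperPSeries p G j).1 ⊔ K) ⊔ (upperPSeries p G (j + 1)).1 := by
      apply le_antisymm
      · exact sup_le le_sup_right (le_sup_right.trans le_sup_left)
      · exact sup_le (sup_le ((hmono j).trans le_sup_left) le_sup_right) le_sup_left
    rw [e, Subgroup.relIndex_sup_left]
    exact Subgroup.relIndex_dvd_of_le_left _ le_sup_left
  unfold IsChain
  refine ⟨?_, ?_, ?_, ?_, ?_, ?_⟩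
  · show (⊥ : Subgroup G).map _ = ⊥
    exact Subgroup.map_bot _
  · show ((upperPSeries p G (2 * k + 1)).1).map _ = ⊤
    have h1 : (upperPSeries p G (2 * k + 1)).1 = ⊤ := h
    rw [h1]
    exact Subgroup.map_top_of_surjective _ (QuotientGroup.mk'_surjective K)
  · intro j
    exact Subgroup.Normal.map (hn j) _ (QuotientGroup.mk'_surjective K)
  · intro j
    exact Subgroup.map_mono (hmono j)
  · intro j hj
    exact Nat.Coprime.coprime_dvd_left (hdvd j) (heven j hj)
  · intro j hj
    obtain ⟨m, hm⟩ := hodd j hj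
    have h1 := hdvd j
    have hm' : (upperPSeries p G j).1.relIndex (upperPSeries p G (j + 1)).1 = p ^ m := hm
    rw [hm'] at h1
    obtain ⟨m', _, hm''⟩ := (Nat.dvd_prime_pow Fact.out).mp h1
    exact ⟨m', hm''⟩

theorem pl_subgroup [Finite G] {p : ℕ} [Fact p.Prime] {k : ℕ} (h : PLengthLE p k G)
    (H : Subgroup G) : PLengthLE p k ↥H := by
  obtain ⟨h0, htop, hn, hmono, heven, hodd⟩ := upper_isChain p k h
  apply pl_of_isChain (N := fun j => ((upperPSeries p G j).1).subgroupOf H)
  have hdvd : ∀ j, (((upperPSeries p G j).1).subgroupOf H).relIndex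
      (((upperPSeries p G (j + 1)).1).subgroupOf H) ∣
      (upperPSeries p G j).1.relIndex (upperPSeries p G (j + 1)).1 := by
    intro j
    have e1 : (((upperPSeries p G j).1).subgroupOf H).relIndex
        (((upperPSeries p G (j + 1)).1).subgroupOf H) =
        (upperPSeries p G j).1.relIndex ((upperPSeries p G (j + 1)).1 ⊓ H) := by
      rw [← Subgroup.subgroupOf_map_subtype]
      exact Subgroup.relIndex_comap _ _ _
    have k1 := Subgroup.relIndex_ker ((upperPSeries p G (j + 1)).1 ⊓ H)
      (QuotientGroup.mk' (upperPSeries p G j).1)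
    have k2 := Subgroup.relIndex_ker ((upperPSeries p G (j + 1)).1)
      (QuotientGroup.mk' (upperPSeries p G j).1)
    rw [QuotientGroup.ker_mk'] at k1 k2
    rw [e1, k1, k2]
    exact Subgroup.card_dvd_of_le (Subgroup.map_mono inf_le_left)
  unfold IsChain
  refine ⟨?_, ?_, ?_, ?_, ?_, ?_⟩
  · show (⊥ : Subgroup G).subgroupOf H = ⊥
    exact Subgroup.bot_subgroupOf H
  · show ((upperPSeries p G (2 * k + 1)).1).subgroupOf H = ⊤
    have h1 : (upperPSeries p G (2 * k + 1)).1 = ⊤ := h
    rw [h1]
    exact Subgroup.top_subgroupOf H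
  · intro j
    show (((upperPSeries p G j).1).subgroupOf H).Normal
    infer_instance
  · intro j
    exact Subgroup.subgroupOf_mono H (hmono j)
  · intro j hj
    exact Nat.Coprime.coprime_dvd_left (hdvd j) (heven j hj)
  · intro j hj
    obtain ⟨m, hm⟩ := hodd j hj
    have h1 := hdvd j
    have hm' : (upperPSeries p G j).1.relIndex (upperPSeries p G (j + 1)).1 = p ^ m := hm
    rw [hm'] at h1
    obtain ⟨m', _, hm''⟩ := (Nat.dvd_prime_pow Fact.out).mp h1
    exact ⟨m', hm''⟩

theorem upper_map_equiv {H : Type u} [Group H] (p : ℕ) (e : G ≃* H) (j : ℕ) :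
    ((upperPSeries p G j).1).map e.toMonoidHom = (upperPSeries p H j).1 := by
  induction j with
  | zero =>
    show (⊥ : Subgroup G).map _ = ⊥
    exact Subgroup.map_bot _
  | succ j ih =>
    have hsurj : Function.Surjective
        ((QuotientGroup.mk' (upperPSeries p H j).1).comp e.toMonoidHom) :=
      (QuotientGroup.mk'_surjective _).comp e.surjective
    have hker : ((QuotientGroup.mk' (upperPSeries p H j).1).comp e.toMonoidHom).ker =
        (upperPSeries p G j).1 := by
      rw [← MonoidHom.comap_ker, QuotientGroup.ker_mk', ← ih]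
      exact Subgroup.comap_map_eq_self_of_injective e.injective _
    have key : ∀ (core : ∀ (X : Type u) [Group X], Subgroup X)
        (_ : ∀ (X Y : Type u) [Group X] [Group Y] (e : X ≃* Y),
          (core X).map e.toMonoidHom = core Y),
        ((core (G ⧸ (upperPSeries p G j).1)).comap
          (QuotientGroup.mk' (upperPSeries p G j).1)).map e.toMonoidHom =
          (core (H ⧸ (upperPSeries p H j).1)).comap
            (QuotientGroup.mk' (upperPSeries p H j).1) := by
      intro core hcore
      rw [Cfsg.Agent.S0635.comap_core_eq core hcore _ hsurj _ hker, ← Subgroup.comap_comap]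
      exact Subgroup.map_comap_eq_self_of_surjective e.surjective _
    by_cases hj : Even j
    · rw [Cfsg.Agent.S0634.ups_succ_even p G j hj, Cfsg.Agent.S0634.ups_succ_even p H j hj]
      exact key (fun X _ => pPrimeCore p X) (fun X Y _ _ e => pPrimeCore_map_equiv p e)
    · rw [Cfsg.Agent.S0634.ups_succ_odd p G j hj, Cfsg.Agent.S0634.ups_succ_odd p H j hj]
      exact key (fun X _ => pCore p X) (fun X Y _ _ e => pCore_map_equiv p e)

theorem upper_map_subtype_normal (p : ℕ) (K : Subgroup G) [K.Normal] (j : ℕ) :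
    (((upperPSeries p ↥K j).1).map K.subtype).Normal := by
  constructor
  rintro _ ⟨y, hy, rfl⟩ g
  refine ⟨MulAut.conjNormal g y, ?_, MulAut.conjNormal_apply g y⟩
  have h := upper_map_equiv p (MulAut.conjNormal g : ↥K ≃* ↥K) j
  rw [← h]
  exact Subgroup.mem_map_of_mem _ hy

theorem pl_zero_of_coprime [Finite G] {p : ℕ} (h : (Nat.card G).Coprime p) :
    PLengthLE p 0 G := by
  show (upperPSeries p G 1).1 = ⊤
  rw [Cfsg.Agent.S0635.ups_one, eq_top_iff]
  exact le_pPrimeCore (inferInstance : (⊤ : Subgroup G).Normal)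
    (by rw [Subgroup.card_top]; exact h)

theorem coprime_of_pl_zero [Finite G] {p : ℕ} (h : PLengthLE p 0 G) :
    (Nat.card G).Coprime p := by
  have h1 : (upperPSeries p G 1).1 = ⊤ := h
  rw [Cfsg.Agent.S0635.ups_one] at h1
  have h2 := pPrimeCore_coprime p G
  rw [h1, Subgroup.card_top] at h2
  exact h2

theorem pl_shift {p : ℕ} {k : ℕ} (h : PLengthLE p (k + 1) G) :
    PLengthLE p k (G ⧸ (upperPSeries p G 2).1) := by
  have h2 := Cfsg.Agent.S0635.ups_shift p (upperPSeries p G 2).1 rfl (2 * k + 1)
  have h1 : (upperPSeries p G (2 + (2 * k + 1))).1 = ⊤ := by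
    have e : 2 + (2 * k + 1) = 2 * (k + 1) + 1 := by ring
    rw [e]
    exact h
  rw [h1] at h2
  show (upperPSeries p (G ⧸ (upperPSeries p G 2).1) (2 * k + 1)).1 = ⊤
  have h3 := congrArg (Subgroup.map (QuotientGroup.mk' (upperPSeries p G 2).1)) h2
  rw [Subgroup.map_comap_eq_self_of_surjective (QuotientGroup.mk'_surjective _),
    Subgroup.map_top_of_surjective _ (QuotientGroup.mk'_surjective _)] at h3
  exact h3.symm

theorem pl_one_of_isPGroup [Finite G] {p : ℕ} [Fact p.Prime] (h : IsPGroup p G) :
    PLengthLE p 1 G := by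
  apply pl_of_isChain (N := fun j => if j ≤ 1 then ⊥ else ⊤)
  unfold IsChain
  refine ⟨by simp, by simp, ?_, ?_, ?_, ?_⟩
  · intro j
    by_cases hj : j ≤ 1
    · simp only [hj, if_true]
      infer_instance
    · simp only [hj, if_false]
      infer_instance
  · intro j
    by_cases hj : j ≤ 1
    · simp only [hj, if_true]
      exact bot_le
    · have h2 : ¬ (j + 1 ≤ 1) := by omega
      simp only [hj, h2, if_false]
      exact le_rfl
  · intro j hj
    by_cases h0 : j = 0
    · subst h0
      simp
    · have h1 : ¬ j ≤ 1 := by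
        intro hle
        have h3 : j = 1 := by omega
        subst h3
        exact absurd hj (by decide)
      have h2 : ¬ j + 1 ≤ 1 := by omega
      simp only [h1, h2, if_false, Subgroup.relIndex_self]
      exact Nat.coprime_one_left p
  · intro j hj
    by_cases h1 : j = 1
    · subst h1
      obtain ⟨n, hn⟩ := IsPGroup.iff_card.mp h
      refine ⟨n, ?_⟩
      simp [Subgroup.relIndex_bot_left, hn]
    · have h0 : j ≠ 0 := by
        rintro rfl
        exact hj (by decide)
      have h2 : ¬ j ≤ 1 := by omega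
      have h3 : ¬ j + 1 ≤ 1 := by omega
      exact ⟨0, by simp only [h2, h3, if_false, Subgroup.relIndex_self, pow_zero]⟩

theorem pl_extension [Finite G] {p : ℕ} [Fact p.Prime] {a c : ℕ} (K : Subgroup G) [K.Normal]
    (hK : PLengthLE p a ↥K) (hQ : PLengthLE p c (G ⧸ K)) : PLengthLE p (a + c) G := by
  obtain ⟨h0, htop, hn, hmono, heven, hodd⟩ := upper_isChain p a hK
  obtain ⟨h0', htop', hn', hmono', heven', hodd'⟩ := upper_isChain p c hQ
  have htopK : (upperPSeries p ↥K (2 * a + 1)).1 = ⊤ := hK
  have htopQ : (upperPSeries p (G ⧸ K) (2 * c + 1)).1 = ⊤ := hQ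
  apply pl_of_isChain (N := fun j => if j ≤ 2 * a then ((upperPSeries p ↥K j).1).map K.subtype
    else ((upperPSeries p (G ⧸ K) (j - 2 * a)).1).comap (QuotientGroup.mk' K))
  have hA : ∀ j, (((upperPSeries p ↥K j).1).map K.subtype).relIndex
      (((upperPSeries p ↥K (j + 1)).1).map K.subtype) =
      (upperPSeries p ↥K j).1.relIndex (upperPSeries p ↥K (j + 1)).1 :=
    fun j => Subgroup.relIndex_map_map_of_injective _ _ K.subtype_injective
  have hB : ∀ i, (((upperPSeries p (G ⧸ K) i).1).comap (QuotientGroup.mk' K)).relIndex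
      (((upperPSeries p (G ⧸ K) (i + 1)).1).comap (QuotientGroup.mk' K)) =
      (upperPSeries p (G ⧸ K) i).1.relIndex (upperPSeries p (G ⧸ K) (i + 1)).1 := by
    intro i
    rw [Subgroup.relIndex_comap,
      Subgroup.map_comap_eq_self_of_surjective (QuotientGroup.mk'_surjective K)]
  have hKA : ((upperPSeries p ↥K (2 * a + 1)).1).map K.subtype = K := by
    rw [htopK, ← MonoidHom.range_eq_map, Subgroup.range_subtype]
  have hKB : ((upperPSeries p (G ⧸ K) 0).1).comap (QuotientGroup.mk' K) = K := by
    show (⊥ : Subgroup (G ⧸ K)).comap _ = K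
    rw [MonoidHom.comap_bot, QuotientGroup.ker_mk']
  have hAK : ∀ j, ((upperPSeries p ↥K j).1).map K.subtype ≤ K := by
    intro j x hx
    obtain ⟨y, _, rfl⟩ := hx
    exact y.2
  have hKBi : ∀ i, K ≤ ((upperPSeries p (G ⧸ K) i).1).comap (QuotientGroup.mk' K) := by
    intro i x hx
    rw [Subgroup.mem_comap]
    have h1 : QuotientGroup.mk' K x = 1 := (QuotientGroup.eq_one_iff x).mpr hx
    rw [h1]
    exact Subgroup.one_mem _
  unfold IsChain
  refine ⟨?_, ?_, ?_, ?_, ?_, ?_⟩
  · simp only [Nat.zero_le, if_true]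
    show (⊥ : Subgroup ↥K).map _ = ⊥
    exact Subgroup.map_bot _
  · have h1 : ¬ (2 * (a + c) + 1 ≤ 2 * a) := by omega
    simp only [h1, if_false]
    have e : 2 * (a + c) + 1 - 2 * a = 2 * c + 1 := by omega
    rw [e, htopQ]
    exact Subgroup.comap_top _
  · intro j
    by_cases hj : j ≤ 2 * a
    · simp only [hj, if_true]
      exact upper_map_subtype_normal p K j
    · simp only [hj, if_false]
      infer_instance
  · intro j
    by_cases hj : j + 1 ≤ 2 * a
    · have hj' : j ≤ 2 * a := by omega
      simp only [hj, hj', if_true]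
      exact Subgroup.map_mono (hmono j)
    · by_cases hj' : j ≤ 2 * a
      · simp only [hj, hj', if_true, if_false]
        exact (hAK j).trans (hKBi _)
      · simp only [hj, hj', if_false]
        have e : j + 1 - 2 * a = (j - 2 * a) + 1 := by omega
        rw [e]
        exact Subgroup.comap_mono (hmono' _)
  · intro j hjeven
    by_cases hj : j + 1 ≤ 2 * a
    · have hj' : j ≤ 2 * a := by omega
      simp only [hj, hj', if_true]
      rw [hA]
      exact heven j hjeven
    · by_cases hj' : j ≤ 2 * a
      · have hj2 : j = 2 * a := by omega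
        simp only [hj, hj', if_true, if_false]
        have e : j + 1 - 2 * a = 0 + 1 := by omega
        rw [e, ← Subgroup.relIndex_mul_relIndex _ K _ (hAK j) (hKBi _)]
        apply Nat.Coprime.mul_left
        · have h1 := hA j
          rw [hj2, hKA] at h1
          rw [hj2, h1]
          exact heven (2 * a) (by simp)
        · have h1 := hB 0
          rw [hKB] at h1
          rw [h1]
          exact heven' 0 (by decide)
      · simp only [hj, hj', if_false]
        have e : j + 1 - 2 * a = (j - 2 * a) + 1 := by omega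
        rw [e, hB]
        apply heven'
        rw [Nat.even_iff] at hjeven ⊢
        omega
  · intro j hjodd
    by_cases hj : j + 1 ≤ 2 * a
    · have hj' : j ≤ 2 * a := by omega
      simp only [hj, hj', if_true]
      rw [hA]
      exact hodd j hjodd
    · by_cases hj' : j ≤ 2 * a
      · exfalso
        have hj2 : j = 2 * a := by omega
        apply hjodd
        rw [hj2]
        simp
      · simp only [hj, hj', if_false]
        have e : j + 1 - 2 * a = (j - 2 * a) + 1 := by omega
        rw [e, hB]
        apply hodd'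
        rw [Nat.even_iff] at hjodd ⊢
        omega

end basic

section derived

theorem ds_bot_of_surjective {A B : Type*} [Group A] [Group B] (f : A →* B)
    (hf : Function.Surjective f) {n : ℕ} (h : derivedSeries A n = ⊥) : derivedSeries B n = ⊥ := by
  rw [← map_derivedSeries_eq hf n, h, Subgroup.map_bot]

theorem ds_bot_of_injective {A B : Type*} [Group A] [Group B] (f : A →* B)
    (hf : Function.Injective f) {n : ℕ} (h : derivedSeries B n = ⊥) : derivedSeries A n = ⊥ := by
  have h1 := map_derivedSeries_le_derivedSeries f n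
  rw [h, le_bot_iff] at h1
  exact (Subgroup.map_eq_bot_iff_of_injective _ hf).mp h1

theorem ds_le_of_quotient {G : Type*} [Group G] (K : Subgroup G) [K.Normal] {n : ℕ}
    (h : derivedSeries (G ⧸ K) n = ⊥) : derivedSeries G n ≤ K := by
  have h1 := map_derivedSeries_eq (QuotientGroup.mk'_surjective K) n
  rw [h, Subgroup.map_eq_bot_iff, QuotientGroup.ker_mk'] at h1
  exact h1

theorem ds_add_le {G : Type*} [Group G] (K : Subgroup G) (a : ℕ) (h : derivedSeries G a ≤ K)
    (b : ℕ) : derivedSeries G (a + b) ≤ (derivedSeries ↥K b).map K.subtype := by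
  induction b with
  | zero =>
    rw [add_zero, derivedSeries_zero, ← MonoidHom.range_eq_map, Subgroup.range_subtype]
    exact h
  | succ b ih =>
    rw [← add_assoc, derivedSeries_succ, derivedSeries_succ, Subgroup.map_commutator]
    exact Subgroup.commutator_mono ih ih

end derived

end Cfsg.Agent.Lib.Helper20.UpperSeries
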